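import Cfsg.Agent.Co0Std.Sylow

/-!
The 2-group generated by the monomial generators is a Sylow subgroup of `Co₀`.
-/

set_option autoImplicit false

namespace Cfsg.Agent.Co0Std

open Cfsg Cfsg.Agent.Golay Cfsg.Agent.Leech Cfsg.Agent.LargeOut

theorem span_check : ∀ i < 12, deepB 0 (spanTab.getD i []) = true ∧
    prodT (spanTab.getD i []) = sgnTab (2 ^ i) := by
  decide +kernel

theorem sgnEl_zero : sgnEl 0 = 1 := by
  refine ((mono_sgn 0).eq_iff mono_one).mpr ?_
  decide +kernel

theorem sgnEl_mem : ∀ k < 4096, sgnEl k ∈ F 0 := by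
  have hbit : ∀ i < 12, sgnEl (2 ^ i) ∈ F 0 := fun i hi => by
    obtain ⟨hd, he⟩ := span_check i hi
    rw [← ((mono_prodGen fun j hj => (deepB_iff.mp hd j hj).1).eq_iff (mono_sgn _)).mpr he]
    exact prodGen_mem hd
  have h : ∀ n ≤ 12, ∀ k < 2 ^ n, sgnEl k ∈ F 0 := by
    intro n
    induction n with
    | zero => intro _ k hk; rw [show k = 0 by simpa using hk, sgnEl_zero]; exact one_mem _
    | succ n ih =>
      intro hn k hk
      rcases Nat.lt_or_ge k (2 ^ n) with h | h
      · exact ih (by omega) k h
      · have e : k = 2 ^ n ^^^ (k - 2 ^ n) := by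
          refine (Nat.eq_of_testBit_eq fun j => ?_)
          obtain ⟨r, rfl⟩ := Nat.exists_eq_add_of_le h
          rw [Nat.add_sub_cancel_left]
          have hr : r < 2 ^ n := by rw [pow_succ] at hk; omega
          rw [Nat.testBit_xor]
          rcases eq_or_ne j n with rfl | hj
          · simp [Nat.testBit_two_pow_add_eq, Nat.testBit_lt_two_pow hr]
          · rcases Nat.lt_or_gt_of_ne hj with hj | hj
            · simp [Nat.testBit_two_pow_add_gt hj, hj.ne']
            · rw [Nat.testBit_lt_two_pow (show 2 ^ n + r < 2 ^ j from lt_of_lt_of_le hk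
                (Nat.pow_le_pow_right (by norm_num) hj)),
                Nat.testBit_lt_two_pow (show r < 2 ^ j from hr.trans
                (Nat.pow_lt_pow_right (by norm_num) hj))]
              simp [hj.ne]
        rw [e, ← sgnEl_mul]
        exact mul_mem (hbit n (by omega)) (ih (by omega) _ (by rw [pow_succ] at hk; omega))
  exact fun k hk => h 12 le_rfl k (by simpa using hk)

/-- The table of one of the permutation parts. -/
def permTab (i : ℕ) : MTab :=
  mulTab (permTabsB.getD (i / 32) []) (permTabsA.getD (i % 32) [])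

/-- The code of the underlying map of a table. -/
def srcCode (A : MTab) : ℕ := A.foldl (fun r e => r * 32 + e.1) 0

/-- The list of products of generators by doubling. -/
def doubled (gs : List ℕ) : List MTab :=
  gs.foldl (fun L g => L ++ L.map (mulTab (tab g))) [oneTab]

theorem perm_tabs_check : (∀ g ∈ permGensA ++ permGensB, g < 22) ∧
    permTabsA = doubled permGensA ∧ permTabsB = doubled permGensB := by
  decide +kernel

theorem perm_check : List.IsChain (· < ·) (sortIdx.map fun i => srcCode (permTab i)) ∧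
    sortIdx.length = 1024 ∧ (sortIdx.all fun i => decide (i < 1024)) = true := by
  decide +kernel

theorem doubled_mem {gs : List ℕ} (hgs : ∀ g ∈ gs, g < 22) :
    ∀ A ∈ doubled gs, ∃ x ∈ F 0, Mono x A := by
  have h : ∀ (gs : List ℕ) (L : List MTab), (∀ g ∈ gs, g < 22) →
      (∀ A ∈ L, ∃ x ∈ F 0, Mono x A) →
      ∀ A ∈ gs.foldl (fun L g => L ++ L.map (mulTab (tab g))) L, ∃ x ∈ F 0, Mono x A := by
    intro gs
    induction gs with
    | nil => intro L _ hL; simpa using hL
    | cons g gs ih =>
      intro L hg hL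
      refine ih _ (fun j hj => hg j (List.mem_cons_of_mem _ hj)) fun A hA => ?_
      rcases List.mem_append.mp hA with hA | hA
      · exact hL A hA
      · obtain ⟨B, hB, rfl⟩ := List.mem_map.mp hA
        obtain ⟨x, hx, hm⟩ := hL B hB
        have hg' := hg g List.mem_cons_self
        exact ⟨gen g * x, mul_mem (gen_mem_F hg' (Nat.zero_le _)) hx, (mono_gen hg').mul hm⟩
  refine h gs [oneTab] hgs fun A hA => ?_
  rw [List.mem_singleton.mp hA]
  exact ⟨1, one_mem _, mono_one⟩

theorem permTab_mem {i : ℕ} (hi : i < 1024) : ∃ x ∈ F 0, Mono x (permTab i) := by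
  obtain ⟨hg, hA, hB⟩ := perm_tabs_check
  have key : ∀ (L : List MTab) (gs : List ℕ) (j : ℕ), L = doubled gs → (∀ g ∈ gs, g < 22) →
      j < L.length → ∃ x ∈ F 0, Mono x (L.getD j []) := fun L gs j hL hgs hj => by
    refine doubled_mem hgs _ ?_
    rw [← hL, List.getD_eq_getElem _ _ hj]
    exact List.getElem_mem hj
  have hl : permTabsA.length = 32 ∧ permTabsB.length = 32 := by decide +kernel
  obtain ⟨b, hb, hbm⟩ := key permTabsB permGensB (i / 32) hB
    (fun g h => hg g (List.mem_append_right _ h)) (by omega)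
  obtain ⟨a, ha, ham⟩ := key permTabsA permGensA (i % 32) hA
    (fun g h => hg g (List.mem_append_left _ h)) (by omega)
  exact ⟨b * a, mul_mem hb ha, hbm.mul ham⟩

theorem index_inj (idx : List ℕ) (f : ℕ → ℕ) (hch : List.IsChain (· < ·) (idx.map f))
    (i j : Fin idx.length) (e : f idx[i] = f idx[j]) : i = j := by
  have hnd : (idx.map f).Nodup := (List.isChain_iff_pairwise.mp hch).imp fun h => h.ne
  refine Fin.ext (hnd.getElem_inj_iff.mp (?_ : (idx.map f)[i.1]'(by simp) = (idx.map f)[j.1]'(by simp)))
  simpa using e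

theorem two_pow_le_card : 2 ^ 22 ≤ Nat.card (F 0) := by
  have := finite_Co0
  obtain ⟨hch, hlen, hidx⟩ := perm_check
  have hidx' : ∀ j : Fin sortIdx.length, sortIdx[j] < 1024 := fun j => by
    simpa using List.all_eq_true.mp hidx _ (List.getElem_mem j.2)
  choose x hx hm using fun j : Fin sortIdx.length => permTab_mem (hidx' j)
  let f : Fin sortIdx.length × Fin 4096 → F 0 := fun q =>
    ⟨x q.1 * sgnEl q.2, mul_mem (hx q.1) (sgnEl_mem _ q.2.2)⟩
  have hinj : Function.Injective f := by
    rintro ⟨i, a⟩ ⟨j, b⟩ e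
    have e' : x i * sgnEl a = x j * sgnEl b := congrArg Subtype.val e
    have et := (((hm i).mul (mono_sgn a)).eq_iff ((hm j).mul (mono_sgn b))).mp e'
    have hfst : ∀ (A : MTab) (k : ℕ), A.length = 24 → (∀ r < 24, (entry A r).1 < 24) →
        (mulTab A (sgnTab k)).map Prod.fst = A.map Prod.fst := by
      intro A k hA hlt
      rw [mulTab, List.map_map]
      refine List.map_congr_left fun p hp => ?_
      obtain ⟨r, hr, rfl⟩ := List.getElem_of_mem hp
      have h1 : A[r].1 < 24 := by
        simpa [entry, List.getD_eq_getElem?_getD, hr] using hlt r (hA ▸ hr)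
      show (entry (sgnTab k) A[r].1).1 = A[r].1
      rw [sgnTab, entry_tabOf _ _ h1]
      exact idx_ptOf _ h1
    have h1 := congrArg (List.map Prod.fst) et
    rw [hfst _ _ (hm i).len (hm i).lt, hfst _ _ (hm j).len (hm j).lt] at h1
    have hc : srcCode (permTab sortIdx[i]) =
        srcCode (permTab sortIdx[j]) := by
      have hs : ∀ A : MTab, srcCode A = (A.map Prod.fst).foldl (fun r e => r * 32 + e) 0 :=
        fun A => by rw [srcCode, List.foldl_map]
      rw [hs, hs, h1]
    have hij : i = j := index_inj sortIdx (fun r => srcCode (permTab r)) hch i j hc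
    subst hij
    have e2 := mul_left_cancel e'
    have et2 := ((mono_sgn a).eq_iff (mono_sgn b)).mp e2
    have hab : (a : ℕ) = b := by
      have key : Golay.enc a % 2 ^ 12 = Golay.enc b % 2 ^ 12 := ?_
      · rw [show (2 : ℕ) ^ 12 = 4096 by norm_num, (Golay.enc_low a.2).1, (Golay.enc_low b.2).1]
          at key
        exact key
      refine Nat.eq_of_testBit_eq fun r => ?_
      rw [Nat.testBit_mod_two_pow, Nat.testBit_mod_two_pow]
      by_cases hr : r < 12
      · have hh := congrArg (fun A => (entry A r).2) et2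
        simp only [sgnTab, entry_tabOf _ _ (show r < 24 by omega)] at hh
        rw [hh]
      · simp [hr]
    exact Prod.ext rfl (Fin.ext hab)
  have := Nat.card_le_card_of_injective f hinj
  simp only [Nat.card_prod, Nat.card_fin, hlen] at this
  norm_num at this ⊢
  exact this

/-- A 2-subgroup containing the generators is generated by them. -/
theorem eq_F_zero {P : Subgroup Co0} (hP : IsPGroup 2 P) (h : F 0 ≤ P) : P = F 0 := by
  have := finite_Co0
  have : Fact (Nat.Prime 2) := ⟨Nat.prime_two⟩
  refine (Subgroup.eq_of_le_of_card_ge h (le_trans ?_ two_pow_le_card)).symm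
  obtain ⟨n, hn⟩ := IsPGroup.iff_card.mp hP
  rw [hn]
  refine Nat.pow_le_pow_right (by norm_num) ?_
  by_contra hc
  have hd : 2 ^ 23 ∣ Nat.card Co0 :=
    (pow_dvd_pow 2 (show 23 ≤ n by omega)).trans (hn ▸ Subgroup.card_subgroup_dvd_card P)
  rw [card_Co0] at hd
  revert hd
  decide +kernel

theorem negCo0_mem_F : negCo0 ∈ F 0 := by
  have : Fact (Nat.Prime 2) := ⟨Nat.prime_two⟩
  have e : negCo0 = sgnEl 4095 := (mono_negCo0.eq_iff (mono_sgn 4095)).mpr (by decide +kernel)
  rw [e]
  exact sgnEl_mem _ (by norm_num)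

end Cfsg.Agent.Co0Std
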