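import Cfsg.Agent.Co0Std.Cases
import Cfsg.Agent.Co0Std.SylowCard

/-!
Not all involutions of the copy are fused to the central one.
-/

set_option autoImplicit false

namespace Cfsg.Agent.Co0Std

open Cfsg Cfsg.Agent.Leech
open scoped commutatorElement

theorem even_of_involution {α : Type*} (s : Finset α) (f : α → α) (hf : ∀ a ∈ s, f a ∈ s)
    (hff : ∀ a ∈ s, f (f a) = a) (hne : ∀ a ∈ s, f a ≠ a) : Even s.card := by
  have h := Finset.sum_involution (f := fun _ => (1 : ZMod 2)) (fun a _ => f a)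
    (s := s) (fun a _ => by decide) (fun a ha _ => hne a ha) hf hff
  rw [Finset.sum_const, nsmul_one] at h
  exact ZMod.natCast_eq_zero_iff_even.mp h

theorem odd_involutions (H : Type*) [Group H] [Finite H] (h : Even (Nat.card H)) :
    Odd {a : H | a * a = 1 ∧ a ≠ 1}.ncard := by
  classical
  have := Fintype.ofFinite H
  have h1 : Even (Finset.univ.filter fun a : H => a * a ≠ 1).card := by
    refine even_of_involution _ (·⁻¹) (fun a ha => ?_) (fun a _ => inv_inv a) fun a ha e => ?_
    · simp only [Finset.mem_filter, Finset.mem_univ, true_and] at ha ⊢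
      rwa [ne_eq, ← mul_inv_rev, inv_eq_one]
    · exact (Finset.mem_filter.mp ha).2 (by nth_rw 1 [← e]; exact inv_mul_cancel a)
  have h2 : ({a : H | a * a = 1 ∧ a ≠ 1} : Set H) =
      ((Finset.univ.filter fun a : H => a * a = 1).erase 1 : Finset H) := by
    ext a; simp
  rw [h2, Set.ncard_coe_finset, Finset.card_erase_of_mem (by simp)]
  have h3 := Finset.card_filter_add_card_filter_not (s := (Finset.univ : Finset H))
    (fun a => a * a = 1)
  rw [Finset.card_univ, ← Nat.card_eq_fintype_card] at h3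
  have h4 : 0 < (Finset.univ.filter fun a : H => a * a = 1).card :=
    Finset.card_pos.mpr ⟨1, by simp⟩
  obtain ⟨m, hm⟩ := h
  obtain ⟨k, hk⟩ := h1
  refine ⟨m - k - 1, ?_⟩
  simp only [ne_eq] at hk
  omega

variable {G : Type*} [Group G] [Finite G] {ι : Co0 →* G}

theorem Std.odd_conjugates (S : Std ι) (hall : ∀ a : Co0, a * a = 1 → a ≠ 1 → Fused ι a) :
    Odd {v : G | IsConj (ι negCo0) v}.ncard := by
  classical
  have := finite_Co0
  set z := ι negCo0 with hz
  set D := {v : G | IsConj z v} with hD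
  have e : {v ∈ D | v * z = z * v} = ι '' {a : Co0 | a * a = 1 ∧ a ≠ 1} := by
    ext v
    constructor
    · rintro ⟨hv, hc⟩
      by_cases hvz : v = z
      · exact ⟨negCo0, ⟨neg_mul_neg, negCo0_ne_one⟩, hvz.symm⟩
      obtain ⟨g, rfl⟩ := isConj_iff.mp hv
      obtain ⟨b, hb⟩ := S.mem_range hc hvz
      have hf : Fused ι b := isConj_iff.mpr ⟨g, hb⟩
      exact ⟨b, ⟨hf.mul_self S.inj, S.fused_ne_one hf⟩, hb.symm⟩
    · rintro ⟨a, ⟨ha, h1⟩, rfl⟩
      exact ⟨hall a ha h1, by rw [hz, ← map_mul, ← map_mul, neg_mul_comm]⟩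
  have hsplit : D.ncard = {v ∈ D | v * z = z * v}.ncard + {v ∈ D | v * z ≠ z * v}.ncard := by
    rw [← Set.ncard_union_eq]
    · congr 1; ext v; by_cases h : v * z = z * v <;> simp [h]
    · exact Set.disjoint_left.mpr fun v h1 h2 => h2.2 h1.2
  have h2 : Even {v ∈ D | v * z ≠ z * v}.ncard := by
    rw [Set.ncard_eq_toFinset_card _ (Set.toFinite _)]
    have hzz : z * z = 1 := ι_neg_mul_self
    refine even_of_involution _ (fun v => z * v * z) (fun v hv => ?_) (fun v _ => ?_) fun v hv e => ?_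
    · rw [Set.Finite.mem_toFinset] at hv ⊢
      obtain ⟨hv, hne⟩ := hv
      refine ⟨hv.trans (isConj_iff.mpr ⟨z, by rw [inv_eq_of_mul_eq_one_right hzz]⟩), fun e => hne ?_⟩
      rw [mul_assoc (z * v), hzz, mul_one, ← mul_assoc z (z * v), ← mul_assoc z z, hzz,
        one_mul] at e
      exact e.symm
    · rw [show z * (z * v * z) * z = z * z * v * (z * z) by group, hzz, one_mul, mul_one]
    · rw [Set.Finite.mem_toFinset] at hv
      refine hv.2 ?_
      have := congrArg (z * ·) e
      simp only [← mul_assoc, hzz, one_mul] at this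
      exact this
  rw [hsplit, e, Set.ncard_image_of_injective _ S.inj]
  refine Odd.add_even (odd_involutions Co0 ?_) h2
  rw [card_Co0]
  decide

theorem Std.not_all_fused (S : Std ι) (hall : ∀ a : Co0, a * a = 1 → a ≠ 1 → Fused ι a) :
    False := by
  have : Fact (Nat.Prime 2) := ⟨Nat.prime_two⟩
  have := finite_Co0
  set z := ι negCo0 with hz
  set C := Subgroup.centralizer (ι.range : Set G) with hC
  set N := Subgroup.centralizer ({z} : Set G) with hN
  have hzN : ∀ {x}, x ∈ N ↔ x * z = z * x := Subgroup.mem_centralizer_singleton_iff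
  have hιN : ∀ a, ι a ∈ N := fun a => hzN.mpr (by rw [hz, ← map_mul, ← map_mul, neg_mul_comm])
  -- the index of the centraliser is odd
  have hidx : Odd N.index := by
    have hcl : N.index = {v : G | IsConj z v}.ncard := by
      rw [Subgroup.index, ← Nat.card_coe_set_eq]
      refine Nat.card_eq_of_bijective
        (fun q : G ⧸ N => (⟨q.liftOn' (fun g => g * z * g⁻¹) (fun a b h => ?_), ?_⟩ :
          {v : G | IsConj z v})) ⟨?_, ?_⟩
      · rw [QuotientGroup.leftRel_apply, hzN] at h
        calc a * z * a⁻¹ = a * (z * (a⁻¹ * b)) * b⁻¹ := by group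
          _ = a * (a⁻¹ * b * z) * b⁻¹ := by rw [h]
          _ = b * z * b⁻¹ := by group
      · induction q using QuotientGroup.induction_on with
        | _ g => exact isConj_iff.mpr ⟨g, rfl⟩
      · intro p q h
        induction p using QuotientGroup.induction_on with
        | _ a =>
          induction q using QuotientGroup.induction_on with
          | _ b =>
            have e : a * z * a⁻¹ = b * z * b⁻¹ := congrArg Subtype.val h
            refine QuotientGroup.eq.mpr (hzN.mpr ?_)
            calc a⁻¹ * b * z = a⁻¹ * (b * z * b⁻¹) * b := by group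
              _ = a⁻¹ * (a * z * a⁻¹) * b := by rw [e]
              _ = z * (a⁻¹ * b) := by group
      · rintro ⟨v, hv⟩
        obtain ⟨g, hg⟩ := isConj_iff.mp hv
        exact ⟨g, Subtype.ext hg⟩
    rw [hcl]
    exact S.odd_conjugates hall
  -- a Sylow subgroup inside it
  have hT : IsPGroup 2 ((F 0).map ι) := isPGroup_F.map ι
  have hTN : (F 0).map ι ≤ N := by rintro _ ⟨a, -, rfl⟩; exact hιN a
  obtain ⟨P0, hP0⟩ := (hT.of_equiv (Subgroup.subgroupOfEquivOfLe hTN).symm).exists_le_sylow
  set P1 := (P0 : Subgroup N).map N.subtype with hP1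
  have hP1N : P1 ≤ N := Subgroup.map_subtype_le _
  have hTP : (F 0).map ι ≤ P1 := fun x hx => ⟨⟨x, hTN hx⟩, hP0 (by exact hx), rfl⟩
  have hP1p : IsPGroup 2 P1 := P0.2.map N.subtype
  have hcard : Nat.card P1 = 2 ^ (Nat.card G).factorization 2 := by
    rw [Subgroup.card_map_of_injective N.subtype_injective, P0.card_eq_multiplicity,
      ← N.card_mul_index, Nat.factorization_mul Nat.card_pos.ne' (by have := hidx.pos; omega)]
    rw [Finsupp.add_apply, Nat.factorization_eq_zero_of_not_dvd
      (Nat.two_dvd_ne_zero.mpr (Nat.odd_iff.mp hidx)), add_zero]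
  set P : Sylow 2 G := Sylow.ofCard P1 hcard with hP
  have hPP : (P : Subgroup G) = P1 := Sylow.coe_ofCard _ _
  -- decomposition
  have hdec : ∀ x ∈ P1, ∃ a ∈ F 0, (ι a)⁻¹ * x ∈ P1 ⊓ C := by
    intro x hx
    obtain ⟨a, ha⟩ := S.split x (hzN.mp (hP1N hx))
    let PA : Subgroup Co0 :=
      { carrier := {a | ∃ c ∈ C, ι a * c ∈ P1}
        mul_mem' := by
          rintro a b ⟨c, hc, h⟩ ⟨d, hd, h'⟩
          refine ⟨c * d, mul_mem hc hd, ?_⟩
          rw [map_mul, ← (commute_cent hc b).symm.mul_mul_mul_comm]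
          exact mul_mem h h'
        one_mem' := ⟨1, one_mem _, by simp⟩
        inv_mem' := by
          rintro a ⟨c, hc, h⟩
          refine ⟨c⁻¹, inv_mem hc, ?_⟩
          rw [map_inv, ((commute_cent (inv_mem hc) a).inv_left).eq, ← mul_inv_rev]
          exact inv_mem h }
    have hPA : IsPGroup 2 PA := by
      rintro ⟨b, c, hc, h⟩
      obtain ⟨n, hn⟩ := hP1p ⟨_, h⟩
      have hn' : (ι b * c) ^ 2 ^ n = 1 := congrArg Subtype.val hn
      rw [(commute_cent hc b).mul_pow, mul_eq_one_iff_eq_inv] at hn'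
      refine ⟨n + 1, Subtype.ext ?_⟩
      rw [← map_pow] at hn'
      rcases S.central (a := b ^ 2 ^ n) (by rw [hn']; exact inv_mem (pow_mem hc _)) with e | e
      · show b ^ 2 ^ (n + 1) = 1
        rw [pow_succ 2 n, pow_mul, e, one_pow]
      · show b ^ 2 ^ (n + 1) = 1
        rw [pow_succ 2 n, pow_mul, e, sq, neg_mul_neg]
    have haP : a ∈ F 0 := by
      rw [← eq_F_zero hPA fun b hb => ⟨1, one_mem _, by rw [mul_one]; exact hTP ⟨b, hb, rfl⟩⟩]
      show ∃ c ∈ C, ι a * c ∈ P1
      exact ⟨_, ha, by rw [mul_inv_cancel_left]; exact hx⟩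
    exact ⟨a, haP, P1.mul_mem (P1.inv_mem (hTP ⟨a, haP, rfl⟩)) hx, ha⟩
  have hcomm : ∀ c ∈ P1 ⊓ C, ∀ d ∈ P1 ⊓ C, ⁅c, d⁆ = 1 := fun c hc d hd =>
    commutatorElement_eq_one_iff_mul_comm.mpr
      (S.cyclicFacts.2.2 _ (hP1p.to_inf_left (K := C)) inf_le_right c hc d hd)
  have hlcs : ∀ n, lcs P1 (n + 1) ≤ (lcs (F 0) (n + 1)).map ι := by
    intro n
    induction n with
    | zero =>
      refine Subgroup.commutator_le.mpr fun x hx y hy => ?_
      obtain ⟨a, ha, hc⟩ := hdec x hx
      obtain ⟨b, hb, hd⟩ := hdec y hy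
      rw [show x = ι a * ((ι a)⁻¹ * x) by group, show y = ι b * ((ι b)⁻¹ * y) by group,
        comm_prod hc.2 hd.2, hcomm _ hc _ hd, mul_one]
      exact ⟨_, Subgroup.commutator_mem_commutator ha hb, rfl⟩
    | succ n ih =>
      refine Subgroup.commutator_le.mpr fun x hx y hy => ?_
      obtain ⟨l, hl, rfl⟩ := ih hx
      obtain ⟨b, hb, hd⟩ := hdec y hy
      rw [show y = ι b * ((ι b)⁻¹ * y) by group]
      have := comm_prod (one_mem C) hd.2 l b
      rw [mul_one, commutatorElement_one_left, mul_one] at this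
      rw [this]
      exact ⟨_, Subgroup.commutator_mem_commutator hl hb, rfl⟩
  -- both involutions are central
  have hcentral : ∀ a ∈ F 0, (∀ b ∈ F 0, b * a = a * b) → ι a ∈ Subgroup.centralizer (P1 : Set G) := by
    intro a _ hab y hy
    obtain ⟨b, hb, hd⟩ := hdec y hy
    have h1 : Commute (ι a) (ι b) := ((show Commute b a from hab b hb).map ι).symm
    have h2 : Commute (ι a) (ι b * ((ι b)⁻¹ * y)) := h1.mul_right (commute_cent hd.2 a)
    rw [mul_inv_cancel_left] at h2
    exact h2.eq.symm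
  have hzP := hcentral _ negCo0_mem_F fun b _ => (neg_mul_comm b).symm
  have huP := hcentral _ (F_anti (Nat.zero_le 7) deep_mem) fun b hb => deep_comm hb
  obtain ⟨g, hg⟩ := isConj_iff.mp (hall deep deep_mul_self deep_ne.1)
  obtain ⟨n, hn, he⟩ := P.conj_eq_normalizer_conj_of_mem_centralizer z g⁻¹
    (fun y hy => hzP y (hPP ▸ hy)) (by rw [inv_inv, hg]; exact fun y hy => huP y (hPP ▸ hy))
  rw [inv_inv, hg] at he
  have hmapP : P1.map (MulAut.conj n).toMonoidHom = P1 := by
    rw [← hPP]
    refine Subgroup.eq_of_le_of_card_ge ?_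
      (Subgroup.card_map_of_injective (MulAut.conj n).injective).ge
    rintro _ ⟨x, hx, rfl⟩
    exact (Subgroup.mem_normalizer_iff.mp hn x).mp hx
  have hinv : ∀ k, (lcs P1 k).map (MulAut.conj n).toMonoidHom = lcs P1 k := by
    intro k
    induction k with
    | zero => exact hmapP
    | succ k ih => rw [lcs, Subgroup.map_commutator, ih, hmapP]
  have hu7 : ι deep ∈ lcs P1 7 := by
    have : ∀ k, (lcs (F 0) k).map ι ≤ lcs P1 k := by
      intro k
      induction k with
      | zero => exact hTP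
      | succ k ih => rw [lcs, lcs, Subgroup.map_commutator]; exact Subgroup.commutator_mono ih hTP
    exact this 7 ⟨deep, deep_mem_lcs, rfl⟩
  have hz7 : z ∈ lcs P1 7 := by
    rw [← hinv 7]
    exact ⟨_, hu7, by show n * ι deep * n⁻¹ = z; rw [he]; group⟩
  obtain ⟨a, ha, hae⟩ := hlcs 6 hz7
  have := S.inj hae
  rcases F_seven_cases (lcs_le_F 7 ha) with e | e
  · exact negCo0_ne_one (this.symm.trans e)
  · exact deep_ne.2 (e.symm.trans this)

end Cfsg.Agent.Co0Std
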