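import Cfsg.Agent.Co0Std.Setup

/-!
Which classes of involutions of the copy are fused to the central involution.
-/

set_option autoImplicit false

namespace Cfsg.Agent.Co0Std

open Cfsg Cfsg.Agent.Leech

variable {G : Type*} [Group G] {ι : Co0 →* G}

/-- The elements of the copy fused to the central involution. -/
def Fused (ι : Co0 →* G) (a : Co0) : Prop := IsConj (ι negCo0) (ι a)

theorem fused_congr {a b : Co0} (h : IsConj a b) : Fused ι a ↔ Fused ι b := by
  obtain ⟨g, rfl⟩ := isConj_iff.mp h
  have : IsConj (ι a) (ι (g * a * g⁻¹)) := isConj_iff.mpr ⟨ι g, by simp⟩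
  exact ⟨fun h => h.trans this, fun h => h.trans this.symm⟩

theorem neg_conj {a b : Co0} (h : IsConj a b) : IsConj (negCo0 * a) (negCo0 * b) := by
  obtain ⟨g, rfl⟩ := isConj_iff.mp h
  exact isConj_iff.mpr ⟨g, by rw [← mul_assoc g, ← neg_mul_comm g]; group⟩

theorem neg_neg_mul (a : Co0) : negCo0 * (negCo0 * a) = a := by
  rw [← mul_assoc, neg_mul_neg, one_mul]

theorem Fused.mul_self (hι : Function.Injective ι) {a : Co0} (h : Fused ι a) : a * a = 1 := by
  obtain ⟨g, hg⟩ := isConj_iff.mp h
  refine hι ?_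
  rw [map_mul, ← hg, map_one,
    show g * ι negCo0 * g⁻¹ * (g * ι negCo0 * g⁻¹) = g * (ι negCo0 * ι negCo0) * g⁻¹ by group,
    ι_neg_mul_self, mul_one, mul_inv_cancel]

theorem Std.fused_ne_one (S : Std ι) {a : Co0} (h : Fused ι a) : a ≠ 1 := by
  rintro rfl
  obtain ⟨g, hg⟩ := isConj_iff.mp h
  rw [map_one] at hg
  exact S.neg_ne (conj_eq_one_iff.mp hg)

variable [Finite G]

theorem Std.transport (S : Std ι) {a : Co0} (g : G) (hg : g * ι negCo0 * g⁻¹ = ι a) {b : Co0}
    (hb : Fused ι b) (hc : Commute a b) (hne : b ≠ a) :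
    ∃ b', g⁻¹ * ι b * g = ι b' ∧ Fused ι b' ∧ b' ≠ negCo0 := by
  obtain ⟨k, hk⟩ := isConj_iff.mp hb
  have e : g⁻¹ * k * ι negCo0 * (g⁻¹ * k)⁻¹ = g⁻¹ * ι b * g := by rw [← hk]; group
  have ez : g⁻¹ * ι a * g = ι negCo0 := by rw [← hg]; group
  have hne' : g⁻¹ * ι b * g ≠ ι negCo0 := fun h => hne (S.inj (by
    rw [← hg, ← h]; group))
  have hcom : Commute (g⁻¹ * ι b * g) (ι negCo0) := by
    rw [← ez]
    show _ = _
    rw [show g⁻¹ * ι b * g * (g⁻¹ * ι a * g) = g⁻¹ * (ι b * ι a) * g by group,
      show g⁻¹ * ι a * g * (g⁻¹ * ι b * g) = g⁻¹ * (ι a * ι b) * g by group,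
      (hc.map ι).eq]
  obtain ⟨b', hb'⟩ := S.mem_range (g := g⁻¹ * k) (by rw [e]; exact hcom) (by rw [e]; exact hne')
  refine ⟨b', e.symm.trans hb', isConj_iff.mpr ⟨_, hb'⟩, ?_⟩
  rintro rfl
  exact hne' (e.symm.trans hb')

theorem Std.pair (S : Std ι) {a b : Co0} (ha : Fused ι a) (hb : Fused ι b) (hc : Commute a b)
    (hne : b ≠ a) :
    ∃ b', Fused ι b' ∧ (IsConj invOct b' ∨ IsConj (negCo0 * invOct) b' ∨ IsConj invDod b') ∧
      (Fused ι (a * b) ↔ Fused ι (negCo0 * b')) := by
  obtain ⟨g, hg⟩ := isConj_iff.mp ha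
  obtain ⟨b', he, hf, hn⟩ := S.transport g hg hb hc hne
  refine ⟨b', hf, classify_invol (hf.mul_self S.inj) (S.fused_ne_one hf) hn, ?_⟩
  have e : IsConj (ι (a * b)) (ι (negCo0 * b')) := isConj_iff.mpr ⟨g⁻¹, by
    rw [map_mul, map_mul, ← he, ← hg]; group⟩
  exact ⟨fun h => h.trans e, fun h => h.trans e.symm⟩

/-- A product of two fused elements centralising a fused element. -/
theorem Std.triple (S : Std ι) {a b : Co0} (ha : Fused ι a) (han : a ≠ negCo0) (hb : Fused ι b)
    (hc : Commute a b) (hne : b ≠ a) (hx : ¬ Fused ι (negCo0 * b))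
    (hbn : b ≠ negCo0) :
    ∃ p, (IsConj invOct p ∨ IsConj (negCo0 * invOct) p ∨ IsConj invDod p) ∧ ¬ Fused ι p ∧
      (Fused ι (a * (negCo0 * b)) ↔ Fused ι (negCo0 * p)) := by
  obtain ⟨g, hg⟩ := isConj_iff.mp ha
  obtain ⟨p, hp, -, -⟩ := S.transport g hg (b := negCo0) (IsConj.refl _)
    (neg_mul_comm a).symm (Ne.symm han)
  obtain ⟨q, hq, -, -⟩ := S.transport g hg hb hc hne
  have e : g⁻¹ * ι (negCo0 * b) * g = ι (p * q) := by
    rw [map_mul, map_mul, ← hp, ← hq]; group
  have hconj : IsConj (ι (negCo0 * b)) (ι (p * q)) := isConj_iff.mpr ⟨g⁻¹, by rw [← e]; group⟩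
  have hnf : ¬ Fused ι (p * q) := fun h => hx (h.trans hconj.symm)
  have hsq : p * q * (p * q) = 1 := by
    refine S.inj ?_
    rw [map_mul, ← e, map_one,
      show g⁻¹ * ι (negCo0 * b) * g * (g⁻¹ * ι (negCo0 * b) * g) =
        g⁻¹ * (ι (negCo0 * b) * ι (negCo0 * b)) * g by group,
      ← map_mul, neg_sq, hb.mul_self S.inj, map_one, mul_one, inv_mul_cancel]
  have hne1 : p * q ≠ 1 := fun h => by
    rw [h, map_one] at e
    have e1 : ι (negCo0 * b) = 1 := by
      calc ι (negCo0 * b) = g * (g⁻¹ * ι (negCo0 * b) * g) * g⁻¹ := by group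
        _ = 1 := by rw [e]; group
    refine hbn ?_
    have e2 : negCo0 * b = 1 := S.inj (e1.trans (map_one ι).symm)
    rw [← neg_neg_mul b, e2, mul_one]
  have hnen : p * q ≠ negCo0 := fun h => hnf (h ▸ IsConj.refl _)
  refine ⟨p * q, classify_invol hsq hne1 hnen, hnf, ?_⟩
  have e' : IsConj (ι (a * (negCo0 * b))) (ι (negCo0 * (p * q))) := isConj_iff.mpr ⟨g⁻¹, by
    rw [map_mul ι a, map_mul ι negCo0 (p * q), ← e, ← hg]; group⟩
  exact ⟨fun h => h.trans e', fun h => h.trans e'.symm⟩

theorem ne_of_mul_conj {a b c : Co0} (ha : a * a = 1) (hc : c ≠ 1) (h : IsConj c (a * b)) :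
    b ≠ a := by
  rintro rfl
  rw [ha] at h
  exact hc (isConj_one_left.mp h)

/-- Either only the central involution is fused, or all involutions are. -/
theorem Std.fused_cases (S : Std ι) :
    (∀ a, Fused ι a → a = negCo0) ∨ ∀ a : Co0, a * a = 1 → a ≠ 1 → Fused ι a := by
  obtain ⟨n1, n2, n3, n4⟩ := sgn_noncentral
  have cong : ∀ {a}, (IsConj invOct a ∨ IsConj (negCo0 * invOct) a ∨ IsConj invDod a) →
      (Fused ι a ↔ Fused ι invOct) ∨ (Fused ι a ↔ Fused ι (negCo0 * invOct)) ∨
        (Fused ι a ↔ Fused ι invDod) := by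
    rintro a (h | h | h)
    · exact Or.inl (fused_congr h).symm
    · exact Or.inr (Or.inl (fused_congr h).symm)
    · exact Or.inr (Or.inr (fused_congr h).symm)
  have negO : ∀ {a}, IsConj invOct a → (Fused ι (negCo0 * a) ↔ Fused ι (negCo0 * invOct)) :=
    fun h => (fused_congr (neg_conj h)).symm
  have negS : ∀ {a}, IsConj (negCo0 * invOct) a → (Fused ι (negCo0 * a) ↔ Fused ι invOct) := by
    intro a h
    have := neg_conj h
    rw [neg_neg_mul] at this
    exact (fused_congr this).symm
  have negD : ∀ {a}, IsConj invDod a → (Fused ι (negCo0 * a) ↔ Fused ι invDod) :=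
    fun h => (fused_congr (invDod_conj_neg.trans (neg_conj h))).symm
  by_cases hd : Fused ι invDod
  · by_cases he : Fused ι invOct
    · by_cases hs : Fused ι (negCo0 * invOct)
      · refine Or.inr fun a ha h1 => ?_
        by_cases h2 : a = negCo0
        · exact h2 ▸ IsConj.refl _
        rcases cong (classify_invol ha h1 h2) with h | h | h <;> rw [h] <;> assumption
      · exfalso
        obtain ⟨b, hb, hc, hab⟩ := dod_oct_six
        have hne := ne_of_mul_conj invDod_mul_self n1 hab
        have hbn : b ≠ negCo0 := by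
          rintro rfl
          obtain ⟨g, hg⟩ := isConj_iff.mp hb
          apply n2
          rw [show invOct = g⁻¹ * (g * invOct * g⁻¹) * g by group, hg, ← neg_mul_comm]
          group
        obtain ⟨p, hp, hpf, hiff⟩ := S.triple hd n4 ((fused_congr hb).mp he) hc hne
          (by rw [negO hb]; exact hs) hbn
        have hax : ¬ Fused ι (invDod * (negCo0 * b)) := by
          rw [← mul_assoc, ← neg_mul_comm invDod, mul_assoc, negO hab]; exact hs
        rw [hiff] at hax
        rcases hp with h | h | h
        · exact hpf ((fused_congr h).mp he)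
        · exact hax ((negS h).mpr he)
        · exact hpf ((fused_congr h).mp hd)
    · by_cases hs : Fused ι (negCo0 * invOct)
      · exfalso
        obtain ⟨b, hb, hc, hab⟩ := dod_oct_six
        have hne : negCo0 * b ≠ invDod := by
          intro h
          have : IsConj invOct (invDod * b) := hab
          rw [← h, mul_assoc, ← sq] at this
          have hbb : b * b = 1 := sq_conj hb (one_mem _) invOct_mul_self
          rw [sq, hbb, mul_one] at this
          obtain ⟨g, hg⟩ := isConj_iff.mp this
          apply n2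
          rw [show invOct = g⁻¹ * (g * invOct * g⁻¹) * g by group, hg, ← neg_mul_comm]
          group
        have hbn : negCo0 * b ≠ negCo0 := by
          intro h
          rw [mul_eq_left] at h
          subst h
          exact n1 (isConj_one_left.mp hb)
        obtain ⟨p, hp, hpf, hiff⟩ := S.triple hd n4 ((negO hb).mpr hs)
          (Commute.mul_right (neg_mul_comm _).symm hc) hne
          (by rw [neg_neg_mul]; exact fun h => he ((fused_congr hb).mpr h)) hbn
        rw [neg_neg_mul] at hiff
        have hax : ¬ Fused ι (invDod * b) := fun h => he ((fused_congr hab).mpr h)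
        rw [hiff] at hax
        rcases hp with h | h | h
        · exact hax ((negO h).mpr hs)
        · exact hpf ((fused_congr h).mp hs)
        · exact hpf ((fused_congr h).mp hd)
      · exfalso
        obtain ⟨b, hb, hc, hab⟩ := dod_pair
        obtain ⟨b', hf, ht, hiff⟩ := S.pair hd ((fused_congr hb).mp hd) hc
          (ne_of_mul_conj invDod_mul_self n1 hab)
        rcases ht with h | h | h
        · exact he ((fused_congr h).mpr hf)
        · exact hs ((fused_congr h).mpr hf)
        · exact he ((fused_congr hab).mpr (hiff.mpr ((negD h).mpr hd)))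
  · by_cases he : Fused ι invOct
    · exfalso
      by_cases hs : Fused ι (negCo0 * invOct)
      · obtain ⟨b, hb, hc, hab⟩ := oct_pair_two
        obtain ⟨b', hf, ht, hiff⟩ := S.pair he ((fused_congr hb).mp he) hc
          (ne_of_mul_conj invOct_mul_self n3 hab)
        rcases ht with h | h | h
        · exact hd ((fused_congr hab).mpr (hiff.mpr ((negO h).mpr hs)))
        · exact hd ((fused_congr hab).mpr (hiff.mpr ((negS h).mpr he)))
        · exact hd ((fused_congr h).mpr hf)
      · obtain ⟨b, hb, hc, hab⟩ := oct_pair_four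
        obtain ⟨b', hf, ht, hiff⟩ := S.pair he ((fused_congr hb).mp he) hc
          (ne_of_mul_conj invOct_mul_self n1 hab)
        rcases ht with h | h | h
        · exact hs ((negO h).mp (hiff.mp ((fused_congr hab).mp he)))
        · exact hs ((fused_congr h).mpr hf)
        · exact hd ((fused_congr h).mpr hf)
    · by_cases hs : Fused ι (negCo0 * invOct)
      · exfalso
        obtain ⟨b, hb, hc, hab⟩ := oct_pair_zero
        have hab' := neg_conj hab
        rw [neg_neg_mul] at hab'
        have hne : negCo0 * b ≠ negCo0 * invOct := fun h => by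
          have hbb := mul_left_cancel h
          rw [hbb, invOct_mul_self] at hab'
          exact n2 ((neg_neg_mul invOct).symm.trans (by
            rw [isConj_one_left.mp hab', mul_one]))
        obtain ⟨b', hf, ht, hiff⟩ := S.pair hs ((negO hb).mpr hs)
          (Commute.mul_left (neg_mul_comm _) (Commute.mul_right (neg_mul_comm _).symm hc)) hne
        have hprod : negCo0 * invOct * (negCo0 * b) = invOct * b := by
          rw [mul_assoc, ← mul_assoc invOct, ← neg_mul_comm invOct, mul_assoc, neg_neg_mul]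
        rw [hprod] at hiff
        rcases ht with h | h | h
        · exact he ((fused_congr h).mpr hf)
        · exact he ((negS h).mp (hiff.mp ((fused_congr hab').mp hs)))
        · exact hd ((fused_congr h).mpr hf)
      · refine Or.inl fun a ha => ?_
        by_contra h2
        rcases cong (classify_invol (ha.mul_self S.inj) (S.fused_ne_one ha) h2) with h | h | h
        · exact he (h.mp ha)
        · exact hs (h.mp ha)
        · exact hd (h.mp ha)

end Cfsg.Agent.Co0Std
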