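import Cfsg.Agent.Co0Std.Fusion
import Cfsg.Agent.S5388
import Cfsg.Agent.S5378

/-!
The elements of `Co₀` squaring into the centre.
-/

set_option autoImplicit false

namespace Cfsg.Agent.Co0Std

open Cfsg Cfsg.Agent.Golay Cfsg.Agent.Leech Cfsg.Agent.LargeOut

/-- The projection to `Co₁`. -/
def toCo1 : Co0 →* Spor.Co1 := QuotientGroup.mk' (Subgroup.center Co0)

theorem toCo1_eq_one {a : Co0} : toCo1 a = 1 ↔ a = 1 ∨ a = negCo0 :=
  (QuotientGroup.eq_one_iff a).trans (center_eq a)

theorem neg_mul_neg : negCo0 * negCo0 = 1 := by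
  rcases (center_eq (negCo0 * negCo0)).1
    (mul_mem ((center_eq _).2 (Or.inr rfl)) ((center_eq _).2 (Or.inr rfl))) with h | h
  · exact h
  · have e : negCo0 = 1 := mul_left_cancel (h.trans (mul_one _).symm)
    rw [e, one_mul]

theorem negCo0_ne_one : negCo0 ≠ 1 := fun h => by
  have := (mono_negCo0.eq_iff mono_one).mp h
  revert this
  decide +kernel

theorem sgn_noncentral :
    invOct ≠ 1 ∧ invOct ≠ negCo0 ∧ invDod ≠ 1 ∧ invDod ≠ negCo0 := by
  have h : sgnTab octKey ≠ oneTab ∧ sgnTab octKey ≠ negTab oneTab ∧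
      sgnTab dodKey ≠ oneTab ∧ sgnTab dodKey ≠ negTab oneTab := by decide +kernel
  exact ⟨fun e => h.1 (((mono_sgn _).eq_iff mono_one).mp e),
    fun e => h.2.1 (((mono_sgn _).eq_iff mono_negCo0).mp e),
    fun e => h.2.2.1 (((mono_sgn _).eq_iff mono_one).mp e),
    fun e => h.2.2.2 (((mono_sgn _).eq_iff mono_negCo0).mp e)⟩

theorem rootEl_ne : rootEl ≠ 1 ∧ rootEl ≠ negCo0 := by
  constructor <;> intro h <;> have := rootEl_mul_self <;> rw [h] at this
  · rw [one_mul] at this; exact negCo0_ne_one this.symm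
  · rw [neg_mul_neg] at this; exact negCo0_ne_one this.symm

theorem conj_of_toCo1 {a b : Co0} (h : IsConj (toCo1 a) (toCo1 b)) :
    IsConj a b ∨ IsConj (negCo0 * a) b := by
  obtain ⟨g', hg⟩ := isConj_iff.mp h
  obtain ⟨g, rfl⟩ : ∃ g, toCo1 g = g' := QuotientGroup.mk'_surjective _ g'
  have e : toCo1 ((g * a * g⁻¹)⁻¹ * b) = 1 := by simp only [map_mul, map_inv]; rw [hg]; group
  rcases toCo1_eq_one.mp e with e | e
  · exact Or.inl (isConj_iff.mpr ⟨g, inv_mul_eq_one.mp e⟩)
  · refine Or.inr (isConj_iff.mpr ⟨g, ?_⟩)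
    rw [inv_mul_eq_iff_eq_mul] at e
    rw [e, ← mul_assoc g, ← neg_mul_comm g, mul_assoc negCo0 g, mul_assoc negCo0, neg_mul_comm]

theorem orderOf_toCo1 {a : Co0} (h : a * a = 1 ∨ a * a = negCo0) (h1 : a ≠ 1) (h2 : a ≠ negCo0) :
    orderOf (toCo1 a) = 2 := by
  have : Fact (Nat.Prime 2) := ⟨Nat.prime_two⟩
  refine orderOf_eq_prime ?_ fun e => ?_
  · rw [sq, ← map_mul]; exact toCo1_eq_one.mpr h
  · rcases toCo1_eq_one.mp e with e | e <;> contradiction

theorem sq_conj {a b : Co0} (h : IsConj a b) {c : Co0} (hc : c ∈ Subgroup.center Co0)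
    (ha : a * a = c) : b * b = c := by
  obtain ⟨g, rfl⟩ := isConj_iff.mp h
  rw [show g * a * g⁻¹ * (g * a * g⁻¹) = g * (a * a) * g⁻¹ by group, ha,
    Subgroup.mem_center_iff.mp hc g, mul_inv_cancel_right]

theorem neg_sq (a : Co0) : negCo0 * a * (negCo0 * a) = a * a := by
  rw [mul_assoc, ← mul_assoc a, ← neg_mul_comm a, mul_assoc, ← mul_assoc negCo0, neg_mul_neg,
    one_mul]

theorem invOct_mul_self : invOct * invOct = 1 := sgn_mul_self _

theorem invDod_mul_self : invDod * invDod = 1 := sgn_mul_self _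

/-- Every element squaring into the centre and outside it is conjugate to one of three up to
sign. -/
theorem classify {a : Co0} (h : a * a = 1 ∨ a * a = negCo0) (h1 : a ≠ 1) (h2 : a ≠ negCo0) :
    (IsConj invOct a ∨ IsConj (negCo0 * invOct) a ∨ IsConj invDod a) ∨
      (IsConj rootEl a ∨ IsConj (negCo0 * rootEl) a) := by
  have : Finite Co0 := finite_Co0
  have : Finite Spor.Co1 := Finite.of_surjective _ (QuotientGroup.mk'_surjective (Subgroup.center Co0))
  obtain ⟨z, hz, Q, hQn, hF, hQ, hcard, ⟨e⟩, hg⟩ := Cfsg.Agent.S5388.result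
  obtain ⟨x, y, w, -, -, -, -, -, -, hall⟩ := Cfsg.Agent.S5378.result z hz Q hF hQ hcard e hg
  have oE := orderOf_toCo1 (Or.inl invOct_mul_self) sgn_noncentral.1 sgn_noncentral.2.1
  have oD := orderOf_toCo1 (Or.inl invDod_mul_self) sgn_noncentral.2.2.1 sgn_noncentral.2.2.2
  have oR := orderOf_toCo1 (Or.inr rootEl_mul_self) rootEl_ne.1 rootEl_ne.2
  have c1 : (1 : Co0) ∈ Subgroup.center Co0 := one_mem _
  have nED : ¬ IsConj (toCo1 invOct) (toCo1 invDod) := by
    intro hc
    rcases conj_of_toCo1 hc with hc | hc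
    · exact not_isConj_oct_dod hc
    · refine not_isConj_oct_dod ?_
      obtain ⟨g, hg⟩ := isConj_iff.mp hc
      have : IsConj invOct (negCo0 * invDod) := isConj_iff.mpr ⟨g, by
        rw [← hg, ← mul_assoc g, ← neg_mul_comm g, mul_assoc negCo0 g, mul_assoc negCo0 (g * invOct),
          ← mul_assoc negCo0, neg_mul_neg, one_mul]⟩
      exact this.trans invDod_conj_neg.symm
  have nR : ∀ u : Co0, u * u = 1 → ¬ IsConj (toCo1 u) (toCo1 rootEl) := by
    intro u hu hc
    rcases conj_of_toCo1 hc with hc | hc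
    · exact negCo0_ne_one (rootEl_mul_self.symm.trans (sq_conj hc c1 hu))
    · exact negCo0_ne_one (rootEl_mul_self.symm.trans (sq_conj hc c1 ((neg_sq u).trans hu)))
  have hid : ∀ u, orderOf u = 2 → IsConj u x ∨ IsConj u y ∨ IsConj u w := hall
  have pigeon : IsConj (toCo1 invOct) (toCo1 a) ∨ IsConj (toCo1 invDod) (toCo1 a) ∨
      IsConj (toCo1 rootEl) (toCo1 a) := by
    have hE := hid _ oE
    have hD := hid _ oD
    have hR := hid _ oR
    have hA := hid _ (orderOf_toCo1 h h1 h2)
    have t : ∀ {p q r : Spor.Co1}, IsConj p r → IsConj q r → IsConj p q :=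
      fun hp hq => hp.trans hq.symm
    rcases hE with hE | hE | hE <;> rcases hD with hD | hD | hD <;>
      rcases hR with hR | hR | hR <;>
      first
        | exact absurd (t hE hD) nED
        | exact absurd (t hE hR) (nR _ invOct_mul_self)
        | exact absurd (t hD hR) (nR _ invDod_mul_self)
        | (rcases hA with hA | hA | hA <;>
            first
              | exact Or.inl (t hE hA)
              | exact Or.inr (Or.inl (t hD hA))
              | exact Or.inr (Or.inr (t hR hA)))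
  rcases pigeon with hc | hc | hc <;> rcases conj_of_toCo1 hc with hc | hc
  · exact Or.inl (Or.inl hc)
  · exact Or.inl (Or.inr (Or.inl hc))
  · exact Or.inl (Or.inr (Or.inr hc))
  · exact Or.inl (Or.inr (Or.inr (invDod_conj_neg.trans hc)))
  · exact Or.inr (Or.inl hc)
  · exact Or.inr (Or.inr hc)

theorem classify_invol {a : Co0} (h : a * a = 1) (h1 : a ≠ 1) (h2 : a ≠ negCo0) :
    IsConj invOct a ∨ IsConj (negCo0 * invOct) a ∨ IsConj invDod a := by
  rcases classify (Or.inl h) h1 h2 with hc | hc | hc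
  · exact hc
  · exact absurd (h.symm.trans (sq_conj hc ((center_eq _).2 (Or.inr rfl)) rootEl_mul_self))
      negCo0_ne_one.symm
  · exact absurd (h.symm.trans (sq_conj hc ((center_eq _).2 (Or.inr rfl))
      ((neg_sq _).trans rootEl_mul_self))) negCo0_ne_one.symm

theorem hasAntiPair {a : Co0} (h : a * a = 1 ∨ a * a = negCo0) (h1 : a ≠ 1) (h2 : a ≠ negCo0) :
    HasAntiPair a := by
  have key : ∀ b, IsConj b a → HasAntiPair b → HasAntiPair a := fun b hc hb => by
    obtain ⟨g, rfl⟩ := isConj_iff.mp hc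
    exact hb.conj g
  rcases classify h h1 h2 with (hc | hc | hc) | hc | hc
  · exact key _ hc antiPair_oct
  · exact key _ hc antiPair_oct.neg
  · exact key _ hc antiPair_dod
  · exact key _ hc antiPair_root
  · exact key _ hc antiPair_root.neg

end Cfsg.Agent.Co0Std
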