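import Mathlib

/-!
A finite group with cyclic Sylow 2-subgroup and a central involution.
-/

set_option autoImplicit false

namespace Cfsg.Agent.Co0Std

theorem cyclic_two_facts {C : Type*} [Group C] [Finite C] (P : Sylow 2 C)
    (hP : IsCyclic (P : Subgroup C)) (z : C) (hz : ∀ c, c * z = z * c) (hz2 : z * z = 1)
    (hz1 : z ≠ 1) :
    (∀ c : C, c * c = 1 → c = 1 ∨ c = z) ∧ Odd (Nat.card (commutator C)) ∧
      (∀ Q : Subgroup C, IsPGroup 2 Q → ∀ a ∈ Q, ∀ b ∈ Q, a * b = b * a) := by
  classical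
  have : Fact (Nat.Prime 2) := ⟨Nat.prime_two⟩
  have heven : 2 ∣ Nat.card C := by
    rw [← orderOf_eq_prime (p := 2) (x := z) (by rw [sq, hz2]) hz1]
    exact orderOf_dvd_natCard z
  have hmin : (Nat.card C).minFac = 2 := (Nat.minFac_eq_two_iff _).mpr heven
  have hN := hP.normalizer_le_centralizer hmin
  set f := MonoidHom.transferSylow P hN
  have hK : ¬ 2 ∣ Nat.card f.ker := MonoidHom.not_dvd_card_ker_transferSylow P hN
  have hcyc := hP
  have hker : ∀ c : C, f c = 1 → c * c = 1 → c = 1 := by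
    intro c hc h2
    by_contra hne
    have ho : orderOf c = 2 := orderOf_eq_prime (by rw [sq, h2]) hne
    have hd : orderOf c ∣ Nat.card f.ker := Subgroup.orderOf_dvd_natCard _ hc
    exact hK (ho.symm.dvd.trans hd)
  refine ⟨fun c hc => ?_, ?_, ?_⟩
  · by_contra h
    push Not at h
    have hfz : f z ≠ 1 := fun e => hz1 (hker z e hz2)
    have hfc : f c ≠ 1 := fun e => h.1 (hker c e hc)
    have hne : f c ≠ f z := by
      intro e
      have h1 : f (c * z) = 1 := by rw [map_mul, e, ← map_mul, hz2, map_one]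
      have h2 : c * z * (c * z) = 1 := by
        rw [show c * z * (c * z) = c * (z * c) * z by group, ← hz, show c * (c * z) * z = c * c * (z * z) by group,
          hc, hz2, one_mul]
      exact h.2 (by
        have := hker _ h1 h2
        rw [mul_eq_one_iff_eq_inv] at this
        rw [this, inv_eq_of_mul_eq_one_right hz2])
    have := Fintype.ofFinite (P : Subgroup C)
    have hle := IsCyclic.card_pow_eq_one_le (α := (P : Subgroup C)) (n := 2) (by norm_num)
    have hsub : ({1, f c, f z} : Finset (P : Subgroup C)) ⊆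
        Finset.univ.filter fun a => a ^ 2 = 1 := by
      intro a ha
      simp only [Finset.mem_insert, Finset.mem_singleton] at ha
      refine Finset.mem_filter.mpr ⟨Finset.mem_univ _, ?_⟩
      rcases ha with rfl | rfl | rfl
      · exact one_pow 2
      · rw [sq, ← map_mul, hc, map_one]
      · rw [sq, ← map_mul, hz2, map_one]
    have h3 := (Finset.card_le_card hsub).trans hle
    rw [Finset.card_insert_of_notMem (by simp [Ne.symm hfc, Ne.symm hfz]),
      Finset.card_pair hne] at h3
    omega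
  · rw [Nat.odd_iff, ← Nat.two_dvd_ne_zero]
    intro h
    refine hK (h.trans (Subgroup.card_dvd_of_le ?_))
    rw [commutator_def, Subgroup.commutator_le]
    intro a _ b _
    rw [MonoidHom.mem_ker, map_commutatorElement, commutatorElement_eq_one_iff_mul_comm]
    obtain ⟨g, hg⟩ := hcyc.exists_generator
    obtain ⟨i, hi⟩ := hg (f a)
    obtain ⟨j, hj⟩ := hg (f b)
    simp only at hi hj
    rw [← hi, ← hj, ← zpow_add, ← zpow_add, add_comm]
  · intro Q hQ a ha b hb
    obtain ⟨R, hR⟩ := hQ.exists_le_sylow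
    obtain ⟨c, hc⟩ := MulAction.exists_smul_eq C R P
    have key : ∀ x ∈ Q, c * x * c⁻¹ ∈ (P : Subgroup C) := fun x hx => by
      rw [← hc]
      exact ⟨x, hR hx, rfl⟩
    obtain ⟨g, hg⟩ := hcyc.exists_generator
    obtain ⟨i, hi⟩ := hg ⟨_, key a ha⟩
    obtain ⟨j, hj⟩ := hg ⟨_, key b hb⟩
    simp only at hi hj
    have e : (⟨_, key a ha⟩ : (P : Subgroup C)) * ⟨_, key b hb⟩ = ⟨_, key b hb⟩ * ⟨_, key a ha⟩ := by
      rw [← hi, ← hj, ← zpow_add, ← zpow_add, add_comm]
    have e' := congrArg Subtype.val e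
    simp only [Subgroup.coe_mul] at e'
    calc a * b = c⁻¹ * ((c * a * c⁻¹) * (c * b * c⁻¹)) * c := by group
      _ = c⁻¹ * ((c * b * c⁻¹) * (c * a * c⁻¹)) * c := by rw [e']
      _ = b * a := by group

end Cfsg.Agent.Co0Std
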