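import Cfsg.Agent.Co0Std.Words

/-!
Fusion of code involutions in `Co₀` and anticommuting elements in their centralisers.
-/

set_option autoImplicit false

namespace Cfsg.Agent.Co0Std

open Cfsg Cfsg.Agent.Golay Cfsg.Agent.Leech Cfsg.Agent.LargeOut

/-- The octad involution. -/
noncomputable def invOct : Co0 := sgnEl octKey

/-- The dodecad involution. -/
noncomputable def invDod : Co0 := sgnEl dodKey

/-- An element squaring to the negative. -/
noncomputable def rootEl : Co0 := wordAut rootWord

theorem mono_word {w : List ℕ} (h : 0 ∉ w) : Mono (wordAut w) (LargeOut.wordTab w) :=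
  mono_wordAut h

theorem negCo0_sgn (k : ℕ) : negCo0 * sgnEl k = sgnEl (4095 ^^^ k) := by
  have e : negCo0 = sgnEl 4095 := (mono_negCo0.eq_iff (mono_sgn 4095)).mpr (by decide +kernel)
  rw [e, sgnEl_mul]

theorem sgn_commute (a b : ℕ) : Commute (sgnEl a) (sgnEl b) := by
  show sgnEl a * sgnEl b = sgnEl b * sgnEl a
  rw [sgnEl_mul, sgnEl_mul, Nat.xor_comm]

theorem sgn_mul_self (a : ℕ) : sgnEl a * sgnEl a = 1 := by
  rw [sgnEl_mul, Nat.xor_self]
  exact ((mono_sgn 0).eq_iff mono_one).mpr (by decide +kernel)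

/-- A word carries the sign change at `c` to that at `k`. -/
def fusB (c k : ℕ) (w : List ℕ) : Bool :=
  !w.contains 0 && mulTab (LargeOut.wordTab w) (sgnTab c) == mulTab (sgnTab k) (LargeOut.wordTab w)

theorem isConj_of_fusB {c k : ℕ} {w : List ℕ} (h : fusB c k w = true) :
    IsConj (sgnEl c) (sgnEl k) := by
  simp only [fusB, Bool.and_eq_true, Bool.not_eq_true', beq_iff_eq] at h
  have h0 : 0 ∉ w := by simpa using h.1
  have e := (((mono_word h0).mul (mono_sgn c)).eq_iff ((mono_sgn k).mul (mono_word h0))).mpr h.2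
  exact isConj_iff.mpr ⟨wordAut w, by rw [e, mul_inv_cancel_right]⟩

theorem fus_check :
    fusB octKey fusO2.1 fusO2.2 = true ∧ fusB dodKey fusP2.1 fusP2.2 = true ∧
    octKey ^^^ fusO2.1 = fusP2.1 ∧
    fusB octKey fusO4.1 fusO4.2 = true ∧ fusB octKey fusP4.1 fusP4.2 = true ∧
    octKey ^^^ fusO4.1 = fusP4.1 ∧
    fusB octKey fusO0.1 fusO0.2 = true ∧ fusB octKey fusT.1 fusT.2 = true ∧
    4095 ^^^ (octKey ^^^ fusO0.1) = fusT.1 ∧
    fusB octKey fusO6.1 fusO6.2 = true ∧ fusB octKey fusP6.1 fusP6.2 = true ∧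
    dodKey ^^^ fusO6.1 = fusP6.1 ∧
    fusB dodKey fusD2.1 fusD2.2 = true ∧ fusB octKey fusQ2.1 fusQ2.2 = true ∧
    dodKey ^^^ fusD2.1 = fusQ2.1 ∧
    fusB dodKey fusND.1 fusND.2 = true ∧ 4095 ^^^ dodKey = fusND.1 := by
  decide +kernel

theorem invDod_conj_neg : IsConj invDod (negCo0 * invDod) := by
  obtain ⟨_, _, _, _, _, _, _, _, _, _, _, _, _, _, _, h, e⟩ := fus_check
  rw [invDod, negCo0_sgn, e]
  exact isConj_of_fusB h

/-- Two octads meeting in two points. -/
theorem oct_pair_two : ∃ b, IsConj invOct b ∧ Commute invOct b ∧ IsConj invDod (invOct * b) := by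
  obtain ⟨h, h', e, _⟩ := fus_check
  refine ⟨sgnEl fusO2.1, isConj_of_fusB h, sgn_commute _ _, ?_⟩
  rw [invOct, sgnEl_mul, e]
  exact isConj_of_fusB h'

/-- Two octads meeting in four points. -/
theorem oct_pair_four : ∃ b, IsConj invOct b ∧ Commute invOct b ∧ IsConj invOct (invOct * b) := by
  obtain ⟨_, _, _, h, h', e, _⟩ := fus_check
  refine ⟨sgnEl fusO4.1, isConj_of_fusB h, sgn_commute _ _, ?_⟩
  rw [show invOct * sgnEl fusO4.1 = sgnEl fusP4.1 by rw [invOct, sgnEl_mul, e]]
  exact isConj_of_fusB h'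

/-- Two disjoint octads. -/
theorem oct_pair_zero :
    ∃ b, IsConj invOct b ∧ Commute invOct b ∧ IsConj invOct (negCo0 * (invOct * b)) := by
  obtain ⟨_, _, _, _, _, _, h, h', e, _⟩ := fus_check
  refine ⟨sgnEl fusO0.1, isConj_of_fusB h, sgn_commute _ _, ?_⟩
  rw [show negCo0 * (invOct * sgnEl fusO0.1) = sgnEl fusT.1 by
    rw [invOct, sgnEl_mul, negCo0_sgn, e]]
  exact isConj_of_fusB h'

/-- An octad meeting a dodecad in six points. -/
theorem dod_oct_six : ∃ b, IsConj invOct b ∧ Commute invDod b ∧ IsConj invOct (invDod * b) := by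
  obtain ⟨_, _, _, _, _, _, _, _, _, h, h', e, _⟩ := fus_check
  refine ⟨sgnEl fusO6.1, isConj_of_fusB h, sgn_commute _ _, ?_⟩
  rw [invDod, sgnEl_mul, e]
  exact isConj_of_fusB h'

/-- Two dodecads whose sum is an octad. -/
theorem dod_pair : ∃ b, IsConj invDod b ∧ Commute invDod b ∧ IsConj invOct (invDod * b) := by
  obtain ⟨_, _, _, _, _, _, _, _, _, _, _, _, h, h', e, _⟩ := fus_check
  refine ⟨sgnEl fusD2.1, isConj_of_fusB h, sgn_commute _ _, ?_⟩
  rw [invDod, sgnEl_mul, e]
  exact isConj_of_fusB h'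

theorem neg_mul_comm (g : Co0) : negCo0 * g = g * negCo0 :=
  (Subgroup.mem_center_iff.1 ((center_eq _).2 (Or.inr rfl)) g).symm

/-- Anticommuting elements in the centraliser of an element. -/
def HasAntiPair (a : Co0) : Prop :=
  ∃ x y : Co0, Commute x a ∧ Commute y a ∧ x * y = negCo0 * (y * x)

theorem HasAntiPair.conj {a : Co0} (h : HasAntiPair a) (g : Co0) :
    HasAntiPair (g * a * g⁻¹) := by
  obtain ⟨x, y, hx, hy, hxy⟩ := h
  have e : ∀ u v : Co0, (g * u * g⁻¹) * (g * v * g⁻¹) = g * (u * v) * g⁻¹ :=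
    fun u v => by group
  refine ⟨g * x * g⁻¹, g * y * g⁻¹, ?_, ?_, ?_⟩
  · show _ = _; rw [e, e, hx.eq]
  · show _ = _; rw [e, e, hy.eq]
  · rw [e, e, hxy, ← mul_assoc g, ← neg_mul_comm, mul_assoc negCo0 g, mul_assoc negCo0]

theorem HasAntiPair.neg {a : Co0} (h : HasAntiPair a) : HasAntiPair (negCo0 * a) := by
  obtain ⟨x, y, hx, hy, hxy⟩ := h
  exact ⟨x, y, Commute.mul_right (neg_mul_comm x).symm hx, Commute.mul_right (neg_mul_comm y).symm hy,
    hxy⟩

/-- The check of an anticommuting pair. -/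
def antiB (A : MTab) (p : List ℕ × List ℕ) : Bool :=
  let X := LargeOut.wordTab p.1
  let Y := LargeOut.wordTab p.2
  !p.1.contains 0 && !p.2.contains 0 && mulTab X A == mulTab A X && mulTab Y A == mulTab A Y &&
    mulTab X Y == mulTab (negTab oneTab) (mulTab Y X)

theorem hasAntiPair_of_antiB {a : Co0} {A : MTab} (ha : Mono a A) {p : List ℕ × List ℕ}
    (h : antiB A p = true) : HasAntiPair a := by
  simp only [antiB, Bool.and_eq_true, Bool.not_eq_true', beq_iff_eq] at h
  obtain ⟨⟨⟨⟨h1, h2⟩, e1⟩, e2⟩, e3⟩ := h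
  have mx := mono_word (w := p.1) (by simpa using h1)
  have my := mono_word (w := p.2) (by simpa using h2)
  exact ⟨_, _, ((mx.mul ha).eq_iff (ha.mul mx)).mpr e1, ((my.mul ha).eq_iff (ha.mul my)).mpr e2,
    ((mx.mul my).eq_iff (mono_negCo0.mul (my.mul mx))).mpr e3⟩

theorem anti_check : antiB (sgnTab octKey) antiOct = true ∧ antiB (sgnTab dodKey) antiDod = true ∧
    antiB (LargeOut.wordTab rootWord) antiRoot = true ∧ 0 ∉ rootWord ∧
    mulTab (LargeOut.wordTab rootWord) (LargeOut.wordTab rootWord) = negTab oneTab := by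
  decide +kernel

theorem antiPair_oct : HasAntiPair invOct := hasAntiPair_of_antiB (mono_sgn _) anti_check.1

theorem antiPair_dod : HasAntiPair invDod := hasAntiPair_of_antiB (mono_sgn _) anti_check.2.1

theorem antiPair_root : HasAntiPair rootEl :=
  hasAntiPair_of_antiB (mono_word anti_check.2.2.2.1) anti_check.2.2.1

theorem rootEl_mul_self : rootEl * rootEl = negCo0 :=
  (((mono_word anti_check.2.2.2.1).mul (mono_word anti_check.2.2.2.1)).eq_iff mono_negCo0).mpr
    anti_check.2.2.2.2

theorem sgnEl_smul (k : ℕ) (x : leechLattice) (p : GolayPt) :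
    (sgnEl k • x).1 p = sgn ((Golay.enc k).testBit (ptIdx p)) (x.1 p) := by
  rw [(mono_sgn k).act x p, sgnTab, entry_tabOf _ _ (ptIdx_lt p)]
  simp only [id_eq, ptOf_ptIdx]

/-- Mutually orthogonal vectors supported on fewer coordinates than their number. -/
theorem not_orthogonal_supported {n : ℕ} (T : Finset GolayPt) (hn : T.card < n)
    (v : Fin n → GolayPt → ℤ) (hO : ∀ i p, p ∉ T → v i p = 0)
    (hd : ∀ i j, dotInt (v i) (v j) = if i = j then 64 else 0) : False := by
  let L : (Fin n → ℚ) →ₗ[ℚ] (↥T → ℚ) :=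
    { toFun := fun a p => ∑ i, a i * (v i p.1 : ℚ)
      map_add' := fun a b => by funext p; simp [add_mul, Finset.sum_add_distrib]
      map_smul' := fun c a => by funext p; simp [Finset.mul_sum, mul_assoc] }
  have hinj : Function.Injective L := by
    rw [injective_iff_map_eq_zero]
    intro a ha
    funext j
    have h : ∑ p : ↥T, L a p * (v j p.1 : ℚ) = 64 * a j := by
      have hsum : ∀ i, (∑ p : ↥T, (v i p.1 : ℚ) * (v j p.1 : ℚ)) = if i = j then 64 else 0 := by
        intro i
        have h1 : ∑ p : ↥T, v i p.1 * v j p.1 = dotInt (v i) (v j) := by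
          rw [dotInt, Finset.sum_coe_sort T fun p => v i p * v j p]
          exact Finset.sum_subset (Finset.subset_univ _) fun p _ hp => by rw [hO i p hp, zero_mul]
        rw [hd] at h1
        have h2 := congrArg (fun z : ℤ => (z : ℚ)) h1
        push_cast at h2
        exact h2
      show ∑ p : ↥T, (∑ i, a i * (v i p.1 : ℚ)) * (v j p.1 : ℚ) = _
      simp only [Finset.sum_mul, mul_assoc]
      rw [Finset.sum_comm]
      simp only [← Finset.mul_sum, hsum, mul_ite, mul_zero, Finset.sum_ite_eq', Finset.mem_univ,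
        if_true]
      ring
    rw [ha] at h
    simp only [Pi.zero_apply, zero_mul, Finset.sum_const_zero] at h
    show a j = 0
    linarith
  have := LinearMap.finrank_le_finrank_of_injective hinj
  simp only [Module.finrank_fintype_fun_eq_card, Fintype.card_fin, Fintype.card_coe] at this
  omega

theorem not_isConj_oct_dod : ¬ IsConj invOct invDod := by
  intro h
  obtain ⟨y, hy⟩ := isConj_iff.mp h
  have hy' : invDod * y = y * invOct := by rw [← hy, inv_mul_cancel_right]
  let free : ℕ → Finset GolayPt := fun k =>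
    Finset.univ.filter fun p => (Golay.enc k).testBit (ptIdx p) = false
  have h16 : (free octKey).card = 16 := by decide +kernel
  have h12 : (free dodKey).card = 12 := by decide +kernel
  obtain ⟨s⟩ : Nonempty (Fin 16 ≃ ↥(free octKey)) := ⟨(Finset.equivFinOfCardEq h16).symm⟩
  refine not_orthogonal_supported (n := 16) (free dodKey) (by omega)
    (fun i => (y • crossL (s i).1).1) (fun i p hp => ?_) fun i j => ?_
  · have hfix : invOct • crossL (s i).1 = crossL (s i).1 := by
      refine Subtype.ext (funext fun q => ?_)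
      rw [invOct, sgnEl_smul]
      by_cases hq : q = (s i).1
      · subst hq
        have hf : (Golay.enc octKey).testBit (ptIdx (s i).1) = false :=
          (Finset.mem_filter.mp (s i).2).2
        rw [hf]
        simp [sgn]
      · simp [crossL, Leech.cross, hq, sgn]
    have e : invDod • (y • crossL (s i).1) = y • crossL (s i).1 := by
      rw [← mul_smul, hy', mul_smul, hfix]
    have e2 := congrFun (congrArg Subtype.val e) p
    rw [invDod, sgnEl_smul] at e2
    have hb : (Golay.enc dodKey).testBit (ptIdx p) = true := by simpa [free] using hp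
    rw [hb] at e2
    simp only [sgn, if_true] at e2
    omega
  · rw [co0_dotInt, show (crossL (s j).1).1 = Leech.cross (s j).1 from rfl, dotInt_cross]
    by_cases hij : i = j
    · subst hij; simp [crossL, Leech.cross]
    · have : ¬ (s j).1 = (s i).1 := fun e => hij (s.injective (Subtype.ext e)).symm
      simp [crossL, Leech.cross, hij, this]

end Cfsg.Agent.Co0Std
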