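import Cfsg.Agent.Co0Std.Classes
import Cfsg.Agent.Co0Std.Cyclic

/-!
A copy of `Co₀` whose centraliser has cyclic Sylow 2-subgroups and whose central involution has
centraliser the product of the two.
-/

set_option autoImplicit false

namespace Cfsg.Agent.Co0Std

open Cfsg Cfsg.Agent.Leech
open scoped commutatorElement

variable {G : Type*} [Group G]

/-- The situation. -/
structure Std (ι : Co0 →* G) : Prop where
  inj : Function.Injective ι
  cyc : ∀ R : Sylow 2 ↥(Subgroup.centralizer (ι.range : Set G)),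
    IsCyclic ↥(R : Subgroup ↥(Subgroup.centralizer (ι.range : Set G)))
  split : ∀ x : G, x * ι negCo0 = ι negCo0 * x →
    ∃ a, (ι a)⁻¹ * x ∈ Subgroup.centralizer (ι.range : Set G)

variable {ι : Co0 →* G}

theorem commute_cent {c : G} (hc : c ∈ Subgroup.centralizer (ι.range : Set G)) (a : Co0) :
    Commute (ι a) c :=
  hc (ι a) ⟨a, rfl⟩

theorem comm_prod {c d : G} (hc : c ∈ Subgroup.centralizer (ι.range : Set G))
    (hd : d ∈ Subgroup.centralizer (ι.range : Set G)) (a b : Co0) :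
    ⁅ι a * c, ι b * d⁆ = ι ⁅a, b⁆ * ⁅c, d⁆ := by
  let f := MonoidHom.noncommCoprod ι (Subgroup.centralizer (ι.range : Set G)).subtype
    fun x y => commute_cent y.2 x
  have h := map_commutatorElement f (a, (⟨c, hc⟩ : Subgroup.centralizer (ι.range : Set G)))
    (b, (⟨d, hd⟩ : Subgroup.centralizer (ι.range : Set G)))
  exact h.symm

theorem ι_neg_mem_cent : ι negCo0 ∈ Subgroup.centralizer (ι.range : Set G) := by
  rintro _ ⟨a, rfl⟩
  rw [← map_mul, ← map_mul, neg_mul_comm]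

theorem ι_neg_mul_self : ι negCo0 * ι negCo0 = 1 := by rw [← map_mul, neg_mul_neg, map_one]

theorem Std.central (S : Std ι) {a : Co0}
    (ha : ι a ∈ Subgroup.centralizer (ι.range : Set G)) : a = 1 ∨ a = negCo0 := by
  rw [← center_eq, Subgroup.mem_center_iff]
  intro g
  refine S.inj ?_
  rw [map_mul, map_mul]
  exact (commute_cent ha g).eq

theorem Std.neg_ne (S : Std ι) : ι negCo0 ≠ 1 := fun e =>
  negCo0_ne_one (S.inj (e.trans (map_one ι).symm))

theorem Std.cyclicFacts [Finite G] (S : Std ι) :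
    (∀ c ∈ Subgroup.centralizer (ι.range : Set G), c * c = 1 → c = 1 ∨ c = ι negCo0) ∧
    (∀ c ∈ Subgroup.centralizer (ι.range : Set G), ∀ d ∈ Subgroup.centralizer (ι.range : Set G),
      ⁅c, d⁆ * ⁅c, d⁆ = 1 ∨ ⁅c, d⁆ * ⁅c, d⁆ = ι negCo0 → ⁅c, d⁆ = 1) ∧
    ∀ Q : Subgroup G, IsPGroup 2 Q → Q ≤ Subgroup.centralizer (ι.range : Set G) →
      ∀ a ∈ Q, ∀ b ∈ Q, a * b = b * a := by
  set C := Subgroup.centralizer (ι.range : Set G) with hC
  have hz : ∀ c ∈ C, c * ι negCo0 = ι negCo0 * c := fun c hc => (commute_cent hc _).eq.symm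
  obtain ⟨P⟩ : Nonempty (Sylow 2 C) := inferInstance
  obtain ⟨h1, h2, h3⟩ := cyclic_two_facts P (S.cyc P) ⟨ι negCo0, ι_neg_mem_cent⟩
    (fun c => Subtype.ext (hz c.1 c.2)) (Subtype.ext ι_neg_mul_self)
    fun e => S.neg_ne (congrArg Subtype.val e)
  refine ⟨fun c hc h => ?_, fun c hc d hd h => ?_, fun Q hQ hle a ha b hb => ?_⟩
  · rcases h1 ⟨c, hc⟩ (Subtype.ext h) with e | e
    · exact Or.inl (congrArg Subtype.val e)
    · exact Or.inr (congrArg Subtype.val e)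
  · set k : C := ⁅(⟨c, hc⟩ : C), ⟨d, hd⟩⁆ with hk
    have hkv : (k : G) = ⁅c, d⁆ := rfl
    have hmem : k ∈ commutator C :=
      Subgroup.commutator_mem_commutator (Subgroup.mem_top _) (Subgroup.mem_top _)
    obtain ⟨m, hm⟩ := (h2.of_dvd_nat (Subgroup.orderOf_dvd_natCard _ hmem))
    have h4 : k ^ 4 = 1 := by
      refine Subtype.ext ?_
      rw [Subgroup.coe_pow, hkv, show (4 : ℕ) = 2 * 2 by norm_num, pow_mul, sq, sq]
      rcases h with e | e <;> rw [e]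
      · simp
      · exact ι_neg_mul_self
    have hd4 : orderOf k ∣ 4 := orderOf_dvd_of_pow_eq_one h4
    have : orderOf k = 1 := by
      have hle := Nat.le_of_dvd (by norm_num) hd4
      have : m = 0 ∨ m = 1 := by omega
      rcases this with rfl | rfl
      · simpa using hm
      · rw [hm] at hd4; norm_num at hd4
    rw [← hkv, orderOf_eq_one_iff.mp this]
    rfl
  · exact congrArg Subtype.val (h3 (Q.subgroupOf C)
      (hQ.of_equiv (Subgroup.subgroupOfEquivOfLe hle).symm) ⟨a, hle ha⟩ ha ⟨b, hle hb⟩ hb)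

theorem Std.inv_conj_mem [Finite G] (S : Std ι) {g : G}
    (hc : Commute (g * ι negCo0 * g⁻¹) (ι negCo0)) (hne : g * ι negCo0 * g⁻¹ ≠ ι negCo0) :
    ∃ b, g⁻¹ * ι negCo0 * g = ι b := by
  obtain ⟨hinv, hodd, -⟩ := S.cyclicFacts
  set v := g * ι negCo0 * g⁻¹ with hv
  have hv2 : v * v = 1 := by
    rw [hv, show g * ι negCo0 * g⁻¹ * (g * ι negCo0 * g⁻¹) = g * (ι negCo0 * ι negCo0) * g⁻¹ by
      group, ι_neg_mul_self, mul_one, mul_inv_cancel]
  have hv1 : v ≠ 1 := fun e => S.neg_ne (conj_eq_one_iff.mp e)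
  obtain ⟨a, hacs⟩ := S.split v hc.eq
  set c := (ι a)⁻¹ * v with hcdef
  have hvac : v = ι a * c := by rw [hcdef, mul_inv_cancel_left]
  have hca := commute_cent hacs a
  have haa : a * a = 1 ∨ a * a = negCo0 := by
    refine S.central ?_
    have e : ι (a * a) = (c * c)⁻¹ := by
      rw [map_mul, eq_inv_iff_mul_eq_one, ← hv2, hvac, hca.symm.mul_mul_mul_comm]
    rw [e]
    exact inv_mem (mul_mem hacs hacs)
  have hnc : ¬ (a = 1 ∨ a = negCo0) := by
    intro h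
    have hvC : v ∈ Subgroup.centralizer (ι.range : Set G) := by
      rw [hvac]
      refine mul_mem ?_ hacs
      rcases h with rfl | rfl
      · rw [map_one]; exact one_mem _
      · exact ι_neg_mem_cent
    rcases hinv v hvC hv2 with e | e <;> contradiction
  push Not at hnc
  obtain ⟨x, y, hx, hy, hxy⟩ := hasAntiPair haa hnc.1 hnc.2
  have key : ∀ x : Co0, Commute x a →
      ∃ x' k, k ∈ Subgroup.centralizer (ι.range : Set G) ∧ g⁻¹ * ι x * g = ι x' * k := by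
    intro x hx
    have hcv : Commute (ι x) v := by rw [hvac]; exact (hx.map ι).mul_right (commute_cent hacs x)
    have : g⁻¹ * ι x * g * ι negCo0 = ι negCo0 * (g⁻¹ * ι x * g) := by
      calc g⁻¹ * ι x * g * ι negCo0 = g⁻¹ * (ι x * v) * g := by rw [hv]; group
        _ = g⁻¹ * (v * ι x) * g := by rw [hcv.eq]
        _ = _ := by rw [hv]; group
    obtain ⟨x', hk⟩ := S.split _ this
    exact ⟨x', _, hk, (mul_inv_cancel_left _ _).symm⟩
  obtain ⟨x', c1, hc1, ex⟩ := key x hx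
  obtain ⟨y', c2, hc2, ey⟩ := key y hy
  have hneg : ι negCo0 = ⁅ι x, ι y⁆ := by
    rw [← map_commutatorElement, commutatorElement_def, hxy]
    congr 1
    group
  have hw : g⁻¹ * ι negCo0 * g = ι ⁅x', y'⁆ * ⁅c1, c2⁆ := by
    rw [hneg, show g⁻¹ * ⁅ι x, ι y⁆ * g = ⁅g⁻¹ * ι x * g, g⁻¹ * ι y * g⁆ by
      simp only [commutatorElement_def]; group, ex, ey]
    exact comm_prod hc1 hc2 x' y'
  have hck : ⁅c1, c2⁆ ∈ Subgroup.centralizer (ι.range : Set G) := by
    rw [commutatorElement_def]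
    exact mul_mem (mul_mem (mul_mem hc1 hc2) (inv_mem hc1)) (inv_mem hc2)
  have hkk : ι (⁅x', y'⁆ * ⁅x', y'⁆) = (⁅c1, c2⁆ * ⁅c1, c2⁆)⁻¹ := by
    rw [map_mul, eq_inv_iff_mul_eq_one, ← (commute_cent hck _).symm.mul_mul_mul_comm, ← hw,
      show g⁻¹ * ι negCo0 * g * (g⁻¹ * ι negCo0 * g) = g⁻¹ * (ι negCo0 * ι negCo0) * g by group,
      ι_neg_mul_self, mul_one, inv_mul_cancel]
  have hkz : ⁅c1, c2⁆ * ⁅c1, c2⁆ = 1 ∨ ⁅c1, c2⁆ * ⁅c1, c2⁆ = ι negCo0 := by
    have e : ⁅c1, c2⁆ * ⁅c1, c2⁆ = (ι (⁅x', y'⁆ * ⁅x', y'⁆))⁻¹ := by rw [hkk, inv_inv]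
    rcases S.central (a := ⁅x', y'⁆ * ⁅x', y'⁆) (by rw [hkk]; exact inv_mem (mul_mem hck hck))
      with h | h <;> rw [e, h]
    · simp
    · exact Or.inr (inv_eq_of_mul_eq_one_right ι_neg_mul_self)
  refine ⟨⁅x', y'⁆, ?_⟩
  rw [hw, hodd c1 hc1 c2 hc2 hkz, mul_one]

/-- A conjugate of the central involution commuting with it lies in the copy. -/
theorem Std.mem_range [Finite G] (S : Std ι) {g : G}
    (hc : Commute (g * ι negCo0 * g⁻¹) (ι negCo0)) (hne : g * ι negCo0 * g⁻¹ ≠ ι negCo0) :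
    ∃ b, g * ι negCo0 * g⁻¹ = ι b := by
  have hc' : Commute (g⁻¹ * ι negCo0 * g⁻¹⁻¹) (ι negCo0) := by
    show _ = _
    calc g⁻¹ * ι negCo0 * g⁻¹⁻¹ * ι negCo0
        = g⁻¹ * (ι negCo0 * (g * ι negCo0 * g⁻¹)) * g := by group
      _ = g⁻¹ * (g * ι negCo0 * g⁻¹ * ι negCo0) * g := by rw [hc.eq]
      _ = _ := by group
  obtain ⟨b, hb⟩ := S.inv_conj_mem hc' fun e => hne (by
    calc g * ι negCo0 * g⁻¹ = g * (g⁻¹ * ι negCo0 * g⁻¹⁻¹) * g⁻¹ := by rw [e]
      _ = ι negCo0 := by group)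
  exact ⟨b, by rw [← hb]; group⟩

end Cfsg.Agent.Co0Std
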