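import Cfsg.Agent.Co0Std.Words

/-!
A Sylow 2-subgroup of `Co₀` inside the monomial group: its lower central series reaches a
subgroup of order two generated by a sign change of weight sixteen.
-/

set_option autoImplicit false

namespace Cfsg.Agent.Co0Std

open Cfsg Cfsg.Agent.Golay Cfsg.Agent.Leech Cfsg.Agent.LargeOut
open scoped commutatorElement

/-- The generators. -/
noncomputable def gen (i : ℕ) : Co0 := wordAut (genWords.getD i [])

/-- Their tables. -/
def tab (i : ℕ) : MTab := genTabs.getD i []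

theorem gens_check : ∀ i < 22, 0 ∉ genWords.getD i [] ∧ LargeOut.wordTab (genWords.getD i []) = tab i := by
  decide +kernel

theorem mono_gen {i : ℕ} (hi : i < 22) : Mono (gen i) (tab i) := by
  rw [← (gens_check i hi).2]
  exact mono_wordAut (gens_check i hi).1

/-- The level of a generator. -/
def lev (i : ℕ) : ℕ := levels.getD i 0

/-- A product of generators. -/
noncomputable def prodGen (l : List ℕ) : Co0 := (l.map gen).prod

/-- Its table. -/
def prodT (l : List ℕ) : MTab := prodTab (l.map tab)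

theorem mono_prodGen {l : List ℕ} (h : ∀ i ∈ l, i < 22) : Mono (prodGen l) (prodT l) :=
  mono_list gen tab l fun i hi => mono_gen (h i hi)

/-- Indices are small and deeper than `k`. -/
def deepB (k : ℕ) (l : List ℕ) : Bool := l.all fun j => decide (j < 22) && decide (k ≤ lev j)

theorem deepB_iff {k : ℕ} {l : List ℕ} :
    deepB k l = true ↔ ∀ j ∈ l, j < 22 ∧ k ≤ lev j := by
  simp [deepB, List.all_eq_true]

/-- The commutator of two generators as a product. -/
def commW (i s : ℕ) : List ℕ := (commTab.getD i []).getD s []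

/-- The square of a generator as a product. -/
def sqW (i : ℕ) : List ℕ := sqTab.getD i []

theorem comm_check : ∀ i < 22, ∀ s < 22, deepB (lev i + 1) (commW i s) = true ∧
    mulTab (tab s) (tab i) = mulTab (mulTab (prodT (commW i s)) (tab i)) (tab s) := by
  decide +kernel

theorem sq_check : ∀ i < 22, deepB (lev i + 1) (sqW i) = true ∧
    mulTab (tab i) (tab i) = prodT (sqW i) := by
  decide +kernel

theorem lev_le : ∀ i < 22, lev i ≤ 7 := by decide +kernel

/-- The series. -/
noncomputable def F (k : ℕ) : Subgroup Co0 :=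
  Subgroup.closure {g | ∃ i < 22, k ≤ lev i ∧ gen i = g}

theorem gen_mem_F {i k : ℕ} (hi : i < 22) (hk : k ≤ lev i) : gen i ∈ F k :=
  Subgroup.subset_closure ⟨i, hi, hk, rfl⟩

theorem F_anti {j k : ℕ} (h : j ≤ k) : F k ≤ F j :=
  Subgroup.closure_mono fun _ ⟨i, hi, hk, e⟩ => ⟨i, hi, h.trans hk, e⟩

theorem F_eight : F 8 = ⊥ := by
  refine (Subgroup.closure_eq_bot_iff).mpr ?_
  rintro g ⟨i, hi, hk, -⟩
  have := lev_le i hi
  omega

theorem prodGen_mem {k : ℕ} {l : List ℕ} (h : deepB k l = true) : prodGen l ∈ F k := by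
  refine Subgroup.list_prod_mem _ fun x hx => ?_
  obtain ⟨j, hj, rfl⟩ := List.mem_map.mp hx
  exact gen_mem_F (deepB_iff.mp h j hj).1 (deepB_iff.mp h j hj).2

theorem comm_gen {i s : ℕ} (hi : i < 22) (hs : s < 22) :
    ⁅gen s, gen i⁆ = prodGen (commW i s) := by
  obtain ⟨hd, he⟩ := comm_check i hi s hs
  have hw := mono_prodGen fun j hj => (deepB_iff.mp hd j hj).1
  have h := (((mono_gen hs).mul (mono_gen hi)).eq_iff
    ((hw.mul (mono_gen hi)).mul (mono_gen hs))).mpr he
  rw [commutatorElement_def, h]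
  group

theorem comm_gen_mem {i s : ℕ} (hi : i < 22) (hs : s < 22) : ⁅gen s, gen i⁆ ∈ F (lev i + 1) := by
  rw [comm_gen hi hs]
  exact prodGen_mem (comm_check i hi s hs).1

theorem F_zero_le_normalizer (k : ℕ) : F 0 ≤ Subgroup.normalizer (F k : Set Co0) := by
  have := finite_Co0
  refine (Subgroup.closure_le _).mpr ?_
  rintro g ⟨s, hs, -, rfl⟩
  have hle : (F k).map (MulAut.conj (gen s)).toMonoidHom ≤ F k := by
    rw [Subgroup.map_le_iff_le_comap, F]
    refine (Subgroup.closure_le _).mpr ?_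
    rintro x ⟨i, hi, hk, rfl⟩
    show MulAut.conj (gen s) (gen i) ∈ F k
    rw [MulAut.conj_apply, show gen s * gen i * (gen s)⁻¹ = ⁅gen s, gen i⁆ * gen i by group]
    exact mul_mem (F_anti (by omega) (comm_gen_mem hi hs)) (gen_mem_F hi hk)
  have heq : (F k).map (MulAut.conj (gen s)).toMonoidHom = F k :=
    Subgroup.eq_of_le_of_card_ge hle
      (Subgroup.card_map_of_injective (MulAut.conj (gen s)).injective).ge
  refine Subgroup.mem_normalizer_iff.mpr fun x => ?_
  constructor
  · intro hx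
    rw [← heq]
    exact ⟨x, hx, rfl⟩
  · intro hx
    rw [← heq] at hx
    obtain ⟨y, hy, e⟩ := hx
    rwa [← (MulAut.conj (gen s)).injective e]

theorem conj_mem_F {k : ℕ} {x y : Co0} (hx : x ∈ F 0) (hy : y ∈ F k) : x * y * x⁻¹ ∈ F k :=
  (Subgroup.mem_normalizer_iff.mp (F_zero_le_normalizer k hx) y).mp hy

theorem comm_mem {k : ℕ} {s x : Co0} (hs : s ∈ F 0) (hx : x ∈ F k) : ⁅s, x⁆ ∈ F (k + 1) := by
  have hgen : ∀ i < 22, ∀ s < 22, k ≤ lev i → ⁅gen s, gen i⁆ ∈ F (k + 1) := fun i hi s hs hk =>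
    F_anti (by omega) (comm_gen_mem hi hs)
  have h1 : ∀ t < 22, ∀ y ∈ F k, ⁅gen t, y⁆ ∈ F (k + 1) := by
    intro t ht y hy
    induction hy using Subgroup.closure_induction with
    | mem y hy => obtain ⟨i, hi, hk, rfl⟩ := hy; exact hgen i hi t ht hk
    | one => rw [commutatorElement_one_right]; exact one_mem _
    | mul a b ha _ iha ihb =>
      rw [show ⁅gen t, a * b⁆ = ⁅gen t, a⁆ * (a * ⁅gen t, b⁆ * a⁻¹) by group]
      exact mul_mem iha (conj_mem_F (F_anti (Nat.zero_le k) ha) ihb)
    | inv a ha iha =>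
      rw [show ⁅gen t, a⁻¹⁆ = a⁻¹ * ⁅gen t, a⁆⁻¹ * (a⁻¹)⁻¹ by group]
      exact conj_mem_F (inv_mem (F_anti (Nat.zero_le k) ha)) (inv_mem iha)
  induction hs using Subgroup.closure_induction with
  | mem s hs => obtain ⟨i, hi, -, rfl⟩ := hs; exact h1 i hi x hx
  | one => rw [commutatorElement_one_left]; exact one_mem _
  | mul a b ha _ iha ihb =>
    rw [show ⁅a * b, x⁆ = a * ⁅b, x⁆ * a⁻¹ * ⁅a, x⁆ by group]
    exact mul_mem (conj_mem_F ha ihb) iha
  | inv a ha iha =>
    rw [show ⁅a⁻¹, x⁆ = a⁻¹ * ⁅a, x⁆⁻¹ * (a⁻¹)⁻¹ by group]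
    exact conj_mem_F (inv_mem ha) (inv_mem iha)

theorem sq_mem {k : ℕ} {x : Co0} (hx : x ∈ F k) : x * x ∈ F (k + 1) := by
  induction hx using Subgroup.closure_induction with
  | mem x hx =>
    obtain ⟨i, hi, hk, rfl⟩ := hx
    obtain ⟨hd, he⟩ := sq_check i hi
    rw [(((mono_gen hi).mul (mono_gen hi)).eq_iff
      (mono_prodGen fun j hj => (deepB_iff.mp hd j hj).1)).mpr he]
    exact F_anti (by omega) (prodGen_mem hd)
  | one => rw [one_mul]; exact one_mem _
  | mul a b ha hb iha ihb =>
    rw [show a * b * (a * b) = a * ⁅b, a⁆ * a⁻¹ * (a * a) * (b * b) by group]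
    exact mul_mem (mul_mem (conj_mem_F (F_anti (Nat.zero_le k) ha)
      (comm_mem (F_anti (Nat.zero_le k) hb) ha)) iha) ihb
  | inv a _ iha =>
    rw [show a⁻¹ * a⁻¹ = (a * a)⁻¹ by group]
    exact inv_mem iha

theorem isPGroup_F : IsPGroup 2 (F 0) := by
  have h : ∀ n ≤ 8, ∀ x ∈ F 0, x ^ 2 ^ n ∈ F n := by
    intro n
    induction n with
    | zero => intro _ x hx; simpa using hx
    | succ n ih =>
      intro hn x hx
      rw [pow_succ, pow_mul, sq]
      exact sq_mem (ih (by omega) x hx)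
  intro x
  refine ⟨8, Subtype.ext ?_⟩
  have := h 8 le_rfl x.1 x.2
  rw [F_eight, Subgroup.mem_bot] at this
  simpa using this

/-- The sign change of weight sixteen generating the last term. -/
noncomputable def deep : Co0 := gen 21

theorem deep_facts : lev 21 = 7 ∧ (∀ i < 22, 7 ≤ lev i → i = 21) ∧
    tab 21 ≠ oneTab ∧ tab 21 ≠ negTab oneTab := by
  decide +kernel

theorem deep_mem : deep ∈ F 7 := gen_mem_F (by norm_num) deep_facts.1.ge

theorem deep_mul_self : deep * deep = 1 := by
  have := sq_mem deep_mem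
  rwa [F_eight, Subgroup.mem_bot] at this

theorem deep_ne : deep ≠ 1 ∧ deep ≠ negCo0 :=
  ⟨fun h => deep_facts.2.2.1 (((mono_gen (by norm_num)).eq_iff mono_one).mp h),
    fun h => deep_facts.2.2.2 (((mono_gen (by norm_num)).eq_iff mono_negCo0).mp h)⟩

theorem F_seven_cases {x : Co0} (hx : x ∈ F 7) : x = 1 ∨ x = deep := by
  induction hx using Subgroup.closure_induction with
  | mem x hx => obtain ⟨i, hi, hk, rfl⟩ := hx; rw [deep_facts.2.1 i hi hk]; exact Or.inr rfl
  | one => exact Or.inl rfl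
  | mul a b _ _ iha ihb =>
    rcases iha with rfl | rfl <;> rcases ihb with rfl | rfl <;> simp [deep_mul_self]
  | inv a _ iha =>
    rcases iha with rfl | rfl
    · simp
    · exact Or.inr (inv_eq_of_mul_eq_one_right deep_mul_self)

theorem deep_comm {s : Co0} (hs : s ∈ F 0) : s * deep = deep * s := by
  have := comm_mem hs deep_mem
  rw [F_eight, Subgroup.mem_bot] at this
  exact commutatorElement_eq_one_iff_mul_comm.mp this

/-- Iterated commutators of a subgroup with itself. -/
def lcs {H : Type*} [Group H] (S : Subgroup H) : ℕ → Subgroup H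
  | 0 => S
  | n + 1 => ⁅lcs S n, S⁆

/-- The chain certificate. -/
def chainB : List ℕ → List (ℕ × List ℕ) → Bool
  | X, [] => X == [21]
  | X, (s, Y) :: l =>
    decide (s < 22) && deepB 0 Y &&
      mulTab (prodT X) (tab s) == mulTab (mulTab (prodT Y) (tab s)) (prodT X) && chainB Y l

theorem chain_check : chainB [chainStart] chainSteps = true ∧ chainStart < 22 ∧
    chainSteps.length = 7 := by
  decide +kernel

theorem chain_mem : ∀ (l : List (ℕ × List ℕ)) (X : List ℕ) (n : ℕ), deepB 0 X = true →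
    prodGen X ∈ lcs (F 0) n → chainB X l = true → deep ∈ lcs (F 0) (n + l.length)
  | [], X, n, _, hX, h => by
    rw [chainB, beq_iff_eq] at h
    subst h
    simpa [prodGen, deep] using hX
  | (s, Y) :: l, X, n, hd, hX, h => by
    simp only [chainB, Bool.and_eq_true, decide_eq_true_eq, beq_iff_eq] at h
    obtain ⟨⟨⟨hs, hY⟩, he⟩, hl⟩ := h
    have hw := mono_prodGen fun j hj => (deepB_iff.mp hd j hj).1
    have hv := mono_prodGen fun j hj => (deepB_iff.mp hY j hj).1
    have e := ((hw.mul (mono_gen hs)).eq_iff ((hv.mul (mono_gen hs)).mul hw)).mpr he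
    have eY : prodGen Y = ⁅prodGen X, gen s⁆ := by rw [commutatorElement_def, e]; group
    have hstep : prodGen Y ∈ lcs (F 0) (n + 1) := by
      rw [eY]
      exact Subgroup.commutator_mem_commutator hX (gen_mem_F hs (Nat.zero_le _))
    rw [List.length_cons, show n + (l.length + 1) = n + 1 + l.length by omega]
    exact chain_mem l Y (n + 1) hY hstep hl

theorem deep_mem_lcs : deep ∈ lcs (F 0) 7 := by
  obtain ⟨hc, hs, hl⟩ := chain_check
  have := chain_mem chainSteps [chainStart] 0 (deepB_iff.mpr (by simp [hs]))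
    (by simpa [prodGen, lcs] using gen_mem_F hs (Nat.zero_le _)) hc
  rwa [hl] at this

theorem lcs_le_F : ∀ n, lcs (F 0) n ≤ F n
  | 0 => le_rfl
  | n + 1 => Subgroup.commutator_le.mpr fun x hx s hs => by
    rw [← commutatorElement_inv]
    exact inv_mem (comm_mem hs (lcs_le_F n hx))

end Cfsg.Agent.Co0Std
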