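import Cfsg.Agent.LargeOut.Co2Gen
import Cfsg.Agent.Co0Std.Data

/-!
Monomial elements of `Co₀` by tables: sign changes, the negative and the generators.
-/

set_option autoImplicit false

namespace Cfsg.Agent.Co0Std

open Cfsg Cfsg.Agent.Golay Cfsg.Agent.Leech Cfsg.Agent.LargeOut

theorem mono_negCo0 : Mono negCo0 (negTab oneTab) := by
  have h := mono_neg mono_one
  rwa [one_mul] at h

/-- The table of a product of a list. -/
def prodTab : List MTab → MTab
  | [] => oneTab
  | A :: l => mulTab A (prodTab l)

theorem mono_list {ι : Type} (f : ι → Co0) (t : ι → MTab) :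
    ∀ l : List ι, (∀ i ∈ l, Mono (f i) (t i)) → Mono (l.map f).prod (prodTab (l.map t))
  | [], _ => by simpa [prodTab] using mono_one
  | i :: l, h => by
    rw [List.map_cons, List.prod_cons, List.map_cons, prodTab]
    exact (h i List.mem_cons_self).mul (mono_list f t l fun j hj => h j (List.mem_cons_of_mem _ hj))

/-- The table of a sign change. -/
def sgnTab (k : ℕ) : MTab := tabOf id (Golay.enc k)

/-- The sign change at a code word. -/
noncomputable def sgnEl (k : ℕ) : Co0 := wordAut [192 + k]

theorem mono_sgn (k : ℕ) : Mono (sgnEl k) (sgnTab k) := by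
  have h : stepTab (192 + k) = sgnTab k := by
    rw [stepTab, if_neg (by omega), Nat.add_sub_cancel_left]; rfl
  rw [← h]
  exact mono_step (by omega) fun x =>
    (wordAut_smul _ x).trans (word3_eq_wordApp2 [192 + k] x.1).symm

theorem mulTab_signs (a b : ℕ) : mulTab (tabOf id a) (tabOf id b) = tabOf id (a ^^^ b) := by
  refine List.ext_getElem (by simp [mulTab, tabOf]) fun i h1 h2 => ?_
  have hi : i < 24 := by simpa [tabOf] using h2
  simp only [mulTab, tabOf, List.getElem_map, List.getElem_range, id_eq]
  rw [idx_ptOf i hi]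
  have e := entry_tabOf (id : GolayPt → GolayPt) b hi
  rw [id_eq, idx_ptOf i hi] at e
  simp only [tabOf, id_eq] at e
  rw [e, Nat.testBit_xor]

theorem sgnEl_mul (a b : ℕ) : sgnEl a * sgnEl b = sgnEl (a ^^^ b) := by
  refine (((mono_sgn a).mul (mono_sgn b)).eq_iff (mono_sgn _)).mpr ?_
  rw [sgnTab, sgnTab, sgnTab, mulTab_signs, Golay.enc_xor]

end Cfsg.Agent.Co0Std
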